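import Mathlib
import Cfsg.Statements.S3339

/-! Frames for the 3-local recognition of `Alt(9)` (helper9). -/

set_option autoImplicit false

namespace Cfsg.Agent.A9T

open Equiv Subgroup

/-- Even permutations preserving the blocks `012 | 345 | 678`. -/
def H1 : Subgroup (Perm (Fin 9)) where
  carrier := {g | Perm.sign g = 1 ∧ ∀ a b : Fin 9, a.val / 3 = b.val / 3 ↔ (g a).val / 3 = (g b).val / 3}
  one_mem' := ⟨by simp, fun _ _ => Iff.rfl⟩
  mul_mem' := fun {g h} hg hh => ⟨by rw [map_mul, hg.1, hh.1, one_mul], fun a b => (hh.2 a b).trans (hg.2 _ _)⟩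
  inv_mem' := fun {g} hg => ⟨by rw [Perm.sign_inv, hg.1], fun a b => by
    have := hg.2 (g⁻¹ a) (g⁻¹ b)
    simp only [Perm.coe_inv, apply_symm_apply] at this ⊢
    exact this.symm⟩

theorem mem_H1 {g : Perm (Fin 9)} : g ∈ H1 ↔
    Perm.sign g = 1 ∧ ∀ a b : Fin 9, a.val / 3 = b.val / 3 ↔ (g a).val / 3 = (g b).val / 3 := Iff.rfl

def z1 : H1 := ⟨swap 0 1 * swap 1 2, mem_H1.2 (by decide +kernel)⟩
def y1 : H1 := ⟨swap 3 4 * swap 4 5, mem_H1.2 (by decide +kernel)⟩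
def u1 : H1 := ⟨swap 6 7 * swap 7 8, mem_H1.2 (by decide +kernel)⟩
def r1 : H1 := ⟨swap 0 1 * swap 7 8, mem_H1.2 (by decide +kernel)⟩
def q1 : H1 := ⟨swap 3 4 * swap 7 8, mem_H1.2 (by decide +kernel)⟩
/-- `(0 3 1 4)(2 5)`. -/
def t1 : H1 := ⟨swap 0 3 * swap 3 1 * swap 1 4 * swap 2 5, mem_H1.2 (by decide +kernel)⟩
def J1 : Subgroup H1 := closure {z1, y1, u1}

/-- `(06)(17)(28)(34)`. -/
def s1 : H1 := ⟨swap 0 6 * swap 1 7 * swap 2 8 * swap 3 4, mem_H1.2 (by decide +kernel)⟩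
/-- `(01)(34)`, `(01)(45)`, `(01)(67)`, `(01)(78)`. -/
def k1 : H1 := ⟨swap 0 1 * swap 3 4, mem_H1.2 (by decide +kernel)⟩
def k2 : H1 := ⟨swap 0 1 * swap 4 5, mem_H1.2 (by decide +kernel)⟩
def k4 : H1 := ⟨swap 0 1 * swap 6 7, mem_H1.2 (by decide +kernel)⟩
def k5 : H1 := ⟨swap 0 1 * swap 7 8, mem_H1.2 (by decide +kernel)⟩

variable {G : Type*} [Group G]

/-- Zeroth frame. -/
structure F0 (η : H1 →* G) : Prop where
  inj : Function.Injective η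
  nJ : ∀ g : G, (∀ x ∈ J1.map η, g * x * g⁻¹ ∈ J1.map η) → g ∈ η.range
  core : ∀ x : H1, orderOf x = 3 → Cfsg.pPrimeCore 3 (centralizer ({η x} : Set G)) = ⊥

/-- Sylow and fusion facts. -/
structure FS (η : H1 →* G) : Prop extends F0 η where
  syl : ¬ 243 ∣ Nat.card G
  fus : ∀ x ∈ J1, ∀ g : G, g * η x * g⁻¹ ∈ J1.map η → ∃ h : H1, g * η x * g⁻¹ = η (h * x * h⁻¹)

/-- Centralisers of the elements of types `b` and `c`. -/
structure G0 (η : H1 →* G) : Prop extends FS η where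
  cc : ∀ g : G, g * η (z1 * y1 * u1) = η (z1 * y1 * u1) * g → g ∈ η.range
  cb : ∀ g : G, g * η (y1 * u1) = η (y1 * u1) * g → g ∈ η.range

end Cfsg.Agent.A9T
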