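import Cfsg.Agent.A9T.A

/-! From the hypotheses to the zeroth frame (helper14). -/

set_option autoImplicit false

namespace Cfsg.Agent.A9T

open Equiv Subgroup

def a0e (p : Fin 3 × Fin 3 × Fin 3) : H1 := z1 ^ p.1.val * y1 ^ p.2.1.val * u1 ^ p.2.2.val

theorem a0e_mul : ∀ p q, a0e p * a0e q = a0e (p + q) := by decide +kernel
theorem a0e_inv : ∀ p, (a0e p)⁻¹ = a0e (-p) := by decide +kernel

theorem a0e_mem (p : Fin 3 × Fin 3 × Fin 3) : a0e p ∈ J1 :=
  mul_mem (mul_mem (pow_mem (subset_closure (by simp)) _) (pow_mem (subset_closure (by simp)) _))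
    (pow_mem (subset_closure (by simp)) _)

theorem a0_ex {x : H1} (hx : x ∈ J1) : ∃ p, a0e p = x := by
  induction hx using closure_induction with
  | mem x hx =>
    rcases hx with rfl | rfl | rfl
    · exact ⟨(1, 0, 0), by decide +kernel⟩
    · exact ⟨(0, 1, 0), by decide +kernel⟩
    · exact ⟨(0, 0, 1), by decide +kernel⟩
  | one => exact ⟨0, by decide +kernel⟩
  | mul x y _ _ hx hy =>
    obtain ⟨p, rfl⟩ := hx
    obtain ⟨q, rfl⟩ := hy
    exact ⟨_, (a0e_mul p q).symm⟩
  | inv x _ hx =>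
    obtain ⟨p, rfl⟩ := hx
    exact ⟨_, (a0e_inv p).symm⟩

abbrev J0 : Subgroup (Perm (Fin 9)) :=
  closure {swap (0 : Fin 9) 1 * swap 1 2, swap (3 : Fin 9) 4 * swap 4 5, swap (6 : Fin 9) 7 * swap 7 8}

theorem a0_J0 (p : Fin 3 × Fin 3 × Fin 3) : (a0e p).1 ∈ J0 := by
  have hz : z1.1 ∈ J0 := subset_closure (Or.inl rfl)
  have hy : y1.1 ∈ J0 := subset_closure (Or.inr (Or.inl rfl))
  have hu : u1.1 ∈ J0 := subset_closure (Or.inr (Or.inr rfl))
  exact mul_mem (mul_mem (pow_mem hz _) (pow_mem hy _)) (pow_mem hu _)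

theorem a0_tri : ∀ a b c : Fin 9, a ≠ b → b ≠ c → a ≠ c → a.val / 3 = b.val / 3 → b.val / 3 = c.val / 3 →
    ∃ p, (a0e p).1 = swap a b * swap b c := by decide +kernel

theorem a0_orb : ∀ a b : Fin 9, a.val / 3 = b.val / 3 → ∃ p, (a0e p).1 a = b := by decide +kernel

theorem a0_blk {j : Perm (Fin 9)} (hj : j ∈ J0) : ∀ a : Fin 9, (j a).val / 3 = a.val / 3 := by
  induction hj using closure_induction with
  | mem x hx => rcases hx with rfl | rfl | rfl <;> decide +kernel
  | one => intro a; rfl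
  | mul x y _ _ hx hy => intro a; rw [Perm.mul_apply, hx, hy]
  | inv x _ hx => intro a; rw [← hx (x⁻¹ a)]; simp

theorem a0_conj {g : Perm (Fin 9)} (hg : g ∈ H1) {j : Perm (Fin 9)} (hj : j ∈ J0) : g * j * g⁻¹ ∈ J0 := by
  have key : ∀ a b c : Fin 9, a ≠ b → b ≠ c → a ≠ c → a.val / 3 = b.val / 3 → b.val / 3 = c.val / 3 →
      g * (swap a b * swap b c) * g⁻¹ ∈ J0 := by
    intro a b c h1 h2 h3 h4 h5
    obtain ⟨p, hp⟩ := a0_tri (g a) (g b) (g c) (g.injective.ne h1) (g.injective.ne h2) (g.injective.ne h3)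
      ((hg.2 a b).1 h4) ((hg.2 b c).1 h5)
    have : g * (swap a b * swap b c) * g⁻¹ = swap (g a) (g b) * swap (g b) (g c) := by
      rw [swap_apply_apply, swap_apply_apply]; group
    rw [this, ← hp]; exact a0_J0 p
  induction hj using closure_induction with
  | mem x hx => rcases hx with rfl | rfl | rfl <;> exact key _ _ _ (by decide) (by decide) (by decide) (by decide) (by decide)
  | one => simp
  | mul x y _ _ hx hy => have := mul_mem hx hy; convert this using 1; group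
  | inv x _ hx => have := inv_mem hx; convert this using 1; group

theorem a0_H1 : H1 = alternatingGroup (Fin 9) ⊓ normalizer (J0 : Set (Perm (Fin 9))) := by
  ext g
  constructor
  · intro hg
    exact ⟨Perm.mem_alternatingGroup.2 hg.1, mem_normalizer_fintype fun n hn => a0_conj hg hn⟩
  · rintro ⟨h1, h2⟩
    have key : ∀ g : Perm (Fin 9), g ∈ normalizer (J0 : Set (Perm (Fin 9))) → ∀ a b : Fin 9,
        a.val / 3 = b.val / 3 → (g a).val / 3 = (g b).val / 3 := by
      intro g hg a b hab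
      obtain ⟨p, rfl⟩ := a0_orb a b hab
      have := a0_blk ((mem_normalizer_iff.1 hg _).1 (a0_J0 p)) (g a)
      simpa using this.symm
    refine ⟨Perm.mem_alternatingGroup.1 h1, fun a b => ⟨key g h2 a b, fun h => ?_⟩⟩
    simpa using key g⁻¹ (inv_mem h2) _ _ h

theorem a0_fix {x q : H1} (o : Fin 9) (qo : q.1 o ≠ o) (qt : ∀ t : Fin 9, t.val / 3 ≠ o.val / 3 → q.1 t = t)
    (x3 : x ^ 3 = 1) (c : x * (q * x * q⁻¹) = q * x * q⁻¹ * x) : (x.1 o).val / 3 = o.val / 3 := by
  by_contra h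
  have e3 : ∀ t, x.1 (x.1 (x.1 t)) = t := fun t => by
    have := congrArg (fun g : H1 => g.1 t) x3
    simpa [pow_succ] using this
  have qi : ∀ t : Fin 9, t.val / 3 ≠ o.val / 3 → q.1⁻¹ t = t := fun t ht => by
    rw [Perm.inv_eq_iff_eq, qt t ht]
  have h2 : (x.1 (x.1 o)).val / 3 ≠ o.val / 3 := fun hh => h (by
    have := (x.2.2 _ _).1 hh
    rw [e3] at this; exact this.symm)
  have := congrArg (fun g : H1 => g.1 (x.1 o)) c
  simp only [coe_mul, coe_inv, Perm.mul_apply] at this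
  rw [qi _ h, qt _ h2, e3, qi _ h2, e3] at this
  exact qo this.symm

theorem a0_rot : ∀ (o : Fin 3) (a b c : Fin 9), a.val / 3 = o.val → b.val / 3 = o.val → c.val / 3 = o.val →
    a ≠ b → b ≠ c → a ≠ c → (a.val = 3 * o.val → b.val = 3 * o.val + 1) →
    (b.val = 3 * o.val + 1 → a.val = 3 * o.val) → (c.val = 3 * o.val + 2 → a.val = 3 * o.val) →
    ∃ i : Fin 3, a.val = 3 * o.val + i.val % 3 ∧ b.val = 3 * o.val + (1 + i.val) % 3 ∧
      c.val = 3 * o.val + (2 + i.val) % 3 := by decide +kernel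

theorem a0_val : ∀ (p : Fin 3 × Fin 3 × Fin 3) (t : Fin 9), ((a0e p).1 t).val =
    3 * (t.val / 3) + (t.val % 3 + (if t.val / 3 = 0 then p.1.val else if t.val / 3 = 1 then p.2.1.val
      else p.2.2.val)) % 3 := by decide +kernel

theorem a0_in {x : H1} (x3 : x ^ 3 = 1) (b : ∀ t : Fin 9, (x.1 t).val / 3 = t.val / 3) : x ∈ J1 := by
  have e3 : ∀ t, x.1 (x.1 (x.1 t)) = t := fun t => by
    have := congrArg (fun g : H1 => g.1 t) x3
    simpa [pow_succ] using this
  have ns : ∀ s t r : Fin 9, s.val / 3 = t.val / 3 → r.val / 3 = t.val / 3 → s ≠ t → r ≠ t → r ≠ s →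
      x.1 s = s → x.1 t = t := by
    intro s t r h1 h2 h3 h4 h5 hs
    by_contra ht
    have n1 : x.1 t ≠ s := fun h => h3 (x.1.injective (hs.trans h.symm))
    have n2 : x.1 r ≠ s := fun h => h5 (x.1.injective (h.trans hs.symm))
    have n3 : x.1 r ≠ x.1 t := x.1.injective.ne h4
    have b1 := b t
    have b2 := b r
    have e1 : x.1 t = r := by
      apply Fin.ext
      simp only [ne_eq, Fin.ext_iff] at *
      omega
    have e2 : x.1 r = t := by
      rw [e1] at n3
      apply Fin.ext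
      simp only [ne_eq, Fin.ext_iff] at *
      omega
    have := e3 t
    rw [e1, e2, e1] at this
    exact h4 this
  have blk : ∀ (o : Fin 3) (s t r : Fin 9), s.val = 3 * o.val → t.val = 3 * o.val + 1 → r.val = 3 * o.val + 2 →
      ∃ i : Fin 3, (x.1 s).val = 3 * o.val + i.val % 3 ∧ (x.1 t).val = 3 * o.val + (1 + i.val) % 3 ∧
        (x.1 r).val = 3 * o.val + (2 + i.val) % 3 := by
    intro o s t r hs ht hr
    have st : s ≠ t := fun h => by rw [h] at hs; omega
    have tr : t ≠ r := fun h => by rw [h] at ht; omega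
    have sr : s ≠ r := fun h => by rw [h] at hs; omega
    refine a0_rot o _ _ _ (by rw [b]; omega) (by rw [b]; omega) (by rw [b]; omega) (x.1.injective.ne st)
      (x.1.injective.ne tr) (x.1.injective.ne sr) (fun h => ?_) (fun h => ?_) (fun h => ?_)
    · rw [ns s t r (by omega) (by omega) st tr.symm sr.symm (Fin.ext (by omega)), ht]
    · rw [ns t s r (by omega) (by omega) st.symm sr.symm tr.symm (Fin.ext (by omega)), hs]
    · rw [ns r s t (by omega) (by omega) sr.symm st.symm tr (Fin.ext (by omega)), hs]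
  obtain ⟨i, i0, i1, i2⟩ := blk 0 0 1 2 rfl rfl rfl
  obtain ⟨j, j0, j1, j2⟩ := blk 1 3 4 5 rfl rfl rfl
  obtain ⟨k, k0, k1, k2⟩ := blk 2 6 7 8 rfl rfl rfl
  have : x = a0e (i, j, k) := by
    apply Subtype.ext
    ext t
    rw [a0_val]
    fin_cases t <;> simp_all
  rw [this]; exact a0e_mem _

theorem exists_F0 {G : Type*} [Group G] [Finite G]
    (J : Subgroup G) (hJcomm : IsMulCommutative J) (hJexp : ∀ a ∈ J, a ^ 3 = 1) (hJcard : Nat.card J = 27)
    (H : Subgroup G) (hH : H = Subgroup.normalizer (J : Set G))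
    (J₀ : Subgroup (Equiv.Perm (Fin 9)))
    (hJ₀ : J₀ = Subgroup.closure {Equiv.swap (0 : Fin 9) 1 * Equiv.swap 1 2, Equiv.swap (3 : Fin 9) 4 * Equiv.swap 4 5, Equiv.swap (6 : Fin 9) 7 * Equiv.swap 7 8})
    (eH : H ≃* ↥(alternatingGroup (Fin 9) ⊓ Subgroup.normalizer (J₀ : Set (Equiv.Perm (Fin 9)))))
    (hcores : ∀ x ∈ H, orderOf x = 3 → Cfsg.pPrimeCore 3 (Subgroup.centralizer ({x} : Set G)) = ⊥) :
    ∃ η : H1 →* G, F0 η ∧ η.range = H ∧ J1.map η = J := by
  subst hJ₀
  let e : H1 ≃* H := (MulEquiv.subgroupCongr a0_H1).trans eH.symm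
  let η : H1 →* G := H.subtype.comp e.toMonoidHom
  have inj : Function.Injective η := Subtype.val_injective.comp e.injective
  have rg : η.range = H := by
    ext g
    exact ⟨fun ⟨x, hx⟩ => hx ▸ (e x).2, fun hg => ⟨e.symm ⟨g, hg⟩, by simp [η]⟩⟩
  have JJ : J = J1.map η := by
    refine eq_of_le_of_card_ge (fun j hj => ?_) ?_
    · have : j ∈ η.range := by rw [rg, hH]; exact le_normalizer hj
      obtain ⟨x, rfl⟩ := this
      refine mem_map_of_mem η ?_
      have x3 : x ^ 3 = 1 := inj (by rw [map_pow, hJexp _ hj, map_one])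
      have cm : ∀ q : H1, x * (q * x * q⁻¹) = q * x * q⁻¹ * x := fun q => inj (by
        have hq : η q ∈ normalizer (J : Set G) := by rw [← hH, ← rg]; exact ⟨q, rfl⟩
        have h2 : η (q * x * q⁻¹) ∈ J := by
          rw [map_mul, map_mul, map_inv]; exact (mem_normalizer_iff.1 hq _).1 hj
        rw [map_mul η x, map_mul η _ x]
        exact congrArg Subtype.val (hJcomm.is_comm.comm ⟨_, hj⟩ ⟨_, h2⟩))
      have f0 := a0_fix (q := z1) 0 (by decide +kernel) (by decide +kernel) x3 (cm _)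
      have f3 := a0_fix (q := y1) 3 (by decide +kernel) (by decide +kernel) x3 (cm _)
      have f6 := a0_fix (q := u1) 6 (by decide +kernel) (by decide +kernel) x3 (cm _)
      refine a0_in x3 fun t => ?_
      have : ∀ t : Fin 9, t.val / 3 = (0 : Fin 9).val / 3 ∨ t.val / 3 = (3 : Fin 9).val / 3 ∨
        t.val / 3 = (6 : Fin 9).val / 3 := by decide
      rcases this t with h | h | h
      · rw [(x.2.2 _ _).1 h, f0, h]
      · rw [(x.2.2 _ _).1 h, f3, h]
      · rw [(x.2.2 _ _).1 h, f6, h]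
    · rw [hJcard]
      have := Nat.card_le_card_of_surjective
        (fun p : Fin 3 × Fin 3 × Fin 3 => (⟨η (a0e p), mem_map_of_mem η (a0e_mem p)⟩ : J1.map η)) (by
          rintro ⟨_, x, hx, rfl⟩
          obtain ⟨p, rfl⟩ := a0_ex hx
          exact ⟨p, rfl⟩)
      simpa using this
  refine ⟨η, ⟨inj, fun g hg => ?_, fun x hx => hcores _ (rg ▸ ⟨x, rfl⟩) ?_⟩, rg, JJ.symm⟩
  · rw [rg, hH]
    rw [← JJ] at hg
    exact mem_normalizer_fintype hg
  · rw [orderOf_injective η inj, hx]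

end Cfsg.Agent.A9T
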