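import Cfsg.Agent.A9T.A
import Cfsg.Agent.A9R.FU

/-! S3339, piece A1: Sylow and fusion facts (helper21). -/

set_option autoImplicit false

namespace Cfsg.Agent.A9T

open Equiv Subgroup

/-- coordinates on `J1` -/
def a1f (p : Fin 3 × Fin 3 × Fin 3) : H1 := z1 ^ p.1.val * y1 ^ p.2.1.val * u1 ^ p.2.2.val

/-- `(036)(147)(258)` -/
def a1r : H1 := ⟨swap 0 3 * swap 3 6 * (swap 1 4 * swap 4 7) * (swap 2 5 * swap 5 8), mem_H1.2 (by decide +kernel)⟩

theorem a1_mem {x : H1} : x ∈ J1 ↔ ∃ p, a1f p = x := by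
  constructor
  · intro hx
    induction hx using closure_induction_left with
    | one => exact ⟨0, by decide +kernel⟩
    | mul_left g hg y _ ih =>
      obtain ⟨p, rfl⟩ := ih
      rcases hg with rfl | rfl | rfl
      · exact ⟨_, (by decide +kernel : ∀ p, a1f (p + (1, 0, 0)) = z1 * a1f p) p⟩
      · exact ⟨_, (by decide +kernel : ∀ p, a1f (p + (0, 1, 0)) = y1 * a1f p) p⟩
      · exact ⟨_, (by decide +kernel : ∀ p, a1f (p + (0, 0, 1)) = u1 * a1f p) p⟩
    | inv_mul_cancel g hg y _ ih =>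
      obtain ⟨p, rfl⟩ := ih
      rcases hg with rfl | rfl | rfl
      · exact ⟨_, (by decide +kernel : ∀ p, a1f (p + (2, 0, 0)) = z1⁻¹ * a1f p) p⟩
      · exact ⟨_, (by decide +kernel : ∀ p, a1f (p + (0, 2, 0)) = y1⁻¹ * a1f p) p⟩
      · exact ⟨_, (by decide +kernel : ∀ p, a1f (p + (0, 0, 2)) = u1⁻¹ * a1f p) p⟩
  · rintro ⟨p, rfl⟩
    exact mul_mem (mul_mem (pow_mem (subset_closure (by simp)) _) (pow_mem (subset_closure (by simp)) _))
      (pow_mem (subset_closure (by simp)) _)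

theorem a1_inj : Function.Injective a1f := fun p q e =>
  (by decide +kernel : ∀ p q, (a1f p).1 0 = (a1f q).1 0 → (a1f p).1 3 = (a1f q).1 3 → (a1f p).1 6 = (a1f q).1 6 → p = q) p q
    (by rw [e]) (by rw [e]) (by rw [e])

theorem a1_card : Nat.card J1 = 27 := by
  have : Nat.card J1 = Nat.card (Set.range a1f) := Nat.card_congr (Equiv.subtypeEquivRight fun _ => a1_mem)
  rw [this, Nat.card_range_of_injective a1_inj]; simp

theorem a1_comm : IsMulCommutative J1 := by
  refine ⟨⟨fun a b => Subtype.ext ?_⟩⟩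
  have k : ∀ x ∈ J1, ∀ y ∈ J1, x * y = y * x := by
    have k1 : J1 ≤ centralizer {z1, y1, u1} := by
      refine (closure_le _).2 ?_
      rintro _ (rfl | rfl | rfl) _ (rfl | rfl | rfl) <;> decide +kernel
    intro x hx y hy
    have : J1 ≤ centralizer {x} := by
      refine (closure_le _).2 fun g hg => ?_
      rintro _ rfl
      exact (k1 hx g hg).symm
    exact this hy x rfl
  exact k _ a.2 _ b.2

variable {G : Type*} [Group G] [Finite G] {η : H1 →* G}

theorem F0.fs (h : F0 η) : FS η := by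
  have : Fact (Nat.Prime 3) := ⟨Nat.prime_three⟩
  have cJ : Nat.card (J1.map η) = 27 := by rw [card_map_of_injective h.inj, a1_card]
  have comm : IsMulCommutative (J1.map η) := by have := a1_comm; infer_instance
  have NR : normalizer (J1.map η : Set G) ≤ η.range := fun g hg => h.nJ g fun x hx => (mem_normalizer_iff.1 hg x).1 hx
  have dR : Nat.card η.range ∣ 362880 := by
    rw [← Nat.card_congr (MonoidHom.ofInjective h.inj).toEquiv]
    have := card_subgroup_dvd_card H1
    rwa [Nat.card_perm, Nat.card_fin] at this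
  have rN : zpowers (η a1r) ≤ normalizer (J1.map η : Set G) := by
    refine zpowers_le.2 (mem_normalizer_fintype ?_)
    rintro _ ⟨x, hx, rfl⟩
    obtain ⟨p, rfl⟩ := a1_mem.1 hx
    exact ⟨a1r * a1f p * a1r⁻¹, a1_mem.2 ((by decide +kernel : ∀ p, ∃ q, a1f q = a1r * a1f p * a1r⁻¹) p), by simp⟩
  have o3 : ∀ x : H1, x ^ 3 = 1 → x ≠ 1 → Nat.card (zpowers (η x)) = 3 := fun x a b => by
    rw [Nat.card_zpowers, orderOf_injective η h.inj, orderOf_eq_prime a b]
  have TN : J1.map η ⊔ zpowers (η a1r) ≤ normalizer (J1.map η : Set G) := sup_le le_normalizer rN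
  have h81 : Nat.card ↥(J1.map η ⊔ zpowers (η a1r)) = 81 := by
    have pT : IsPGroup 3 ↥(J1.map η ⊔ zpowers (η a1r)) := (IsPGroup.of_card (n := 3) cJ).to_sup_of_normal_left'
      (IsPGroup.of_card (n := 1) (o3 _ (by decide +kernel) (by decide +kernel))) rN
    obtain ⟨n, hn⟩ := IsPGroup.iff_card.1 pT
    have d1 := (card_dvd_of_le (TN.trans NR)).trans dR
    have lt : J1.map η < J1.map η ⊔ zpowers (η a1r) := by
      refine lt_of_le_of_ne le_sup_left fun e => ?_
      obtain ⟨x, hx, e2⟩ : η a1r ∈ J1.map η := e ▸ mem_sup_right (mem_zpowers _)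
      rw [h.inj e2] at hx
      exact absurd (a1_mem.1 hx) (by decide +kernel)
    have d2 := card_dvd_of_le lt.le
    have ne : Nat.card ↥(J1.map η ⊔ zpowers (η a1r)) ≠ 27 := fun e =>
      lt.ne (eq_of_le_of_card_ge lt.le (by rw [e, cJ]))
    rw [hn] at d1 d2 ne ⊢
    rw [cJ] at d2
    have n5 : n < 5 := by
      by_contra n5
      exact absurd ((pow_dvd_pow 3 (not_lt.1 n5)).trans d1) (by norm_num)
    interval_cases n <;> simp_all
  obtain ⟨a, b⟩ := A9R.fu (Z := zpowers (η (z1 * y1 * u1))) comm cJ le_sup_left TN h81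
    (fun d => absurd (d.trans ((card_dvd_of_le NR).trans dR)) (by norm_num)) (o3 _ (by decide +kernel) (by decide +kernel)) (by
      rintro _ ⟨x, hx, rfl⟩ c
      obtain ⟨p, rfl⟩ := a1_mem.1 hx
      have e := c _ (mem_sup_right (mem_zpowers _))
      rw [← map_mul, ← map_mul] at e
      obtain ⟨k, hk⟩ := (by decide +kernel : ∀ p, a1r * a1f p = a1f p * a1r → ∃ k : Fin 3, (z1 * y1 * u1) ^ k.val = a1f p) p
        (h.inj e)
      rw [← hk, map_pow]
      exact pow_mem (mem_zpowers _) _)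
  refine ⟨h, a, fun x hx g hg => ?_⟩
  obtain ⟨k, hk, e⟩ := b _ ⟨x, hx, rfl⟩ g hg
  obtain ⟨k, rfl⟩ := NR hk
  exact ⟨k, by rw [← e]; simp⟩

end Cfsg.Agent.A9T
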