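import Cfsg.Agent.A9T.A
import Cfsg.Agent.A9R.CZ

/-! `C(c) ≤ N(J)` in the frame `FS` (helper1). -/

set_option autoImplicit false

namespace Cfsg.Agent.A9T

open Equiv Subgroup

def a2_W (p : Fin 3 × Fin 3 × Fin 3) : H1 := z1 ^ p.1.1 * y1 ^ p.2.1.1 * u1 ^ p.2.2.1

theorem a2_mul : ∀ p q, (a2_W p * a2_W q).1 = (a2_W (p + q)).1 := by decide +kernel

theorem a2_inv : ∀ p, (a2_W p)⁻¹.1 = (a2_W (-p)).1 := by decide +kernel

theorem a2_inj : ∀ p q, (a2_W p).1 = (a2_W q).1 → p = q := by decide +kernel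

theorem a2_z : z1 ∈ J1 := subset_closure (by simp)
theorem a2_y : y1 ∈ J1 := subset_closure (by simp)
theorem a2_u : u1 ∈ J1 := subset_closure (by simp)

theorem a2_WJ (p : Fin 3 × Fin 3 × Fin 3) : a2_W p ∈ J1 :=
  mul_mem (mul_mem (pow_mem a2_z _) (pow_mem a2_y _)) (pow_mem a2_u _)

theorem a2_mem {x : H1} (hx : x ∈ J1) : ∃ p, x = a2_W p := by
  induction hx using closure_induction with
  | mem x hx =>
    rcases hx with rfl | rfl | rfl
    · exact ⟨(1, 0, 0), Subtype.ext (by decide +kernel)⟩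
    · exact ⟨(0, 1, 0), Subtype.ext (by decide +kernel)⟩
    · exact ⟨(0, 0, 1), Subtype.ext (by decide +kernel)⟩
  | one => exact ⟨(0, 0, 0), Subtype.ext (by decide +kernel)⟩
  | mul x y _ _ h1 h2 =>
    obtain ⟨p, rfl⟩ := h1
    obtain ⟨q, rfl⟩ := h2
    exact ⟨p + q, Subtype.ext (a2_mul p q)⟩
  | inv x _ h =>
    obtain ⟨p, rfl⟩ := h
    exact ⟨-p, Subtype.ext (a2_inv p)⟩

theorem a2_card : Nat.card J1 = 27 := by
  have : Nat.card (Fin 3 × Fin 3 × Fin 3) = Nat.card J1 :=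
    Nat.card_eq_of_bijective (fun p => ⟨a2_W p, a2_WJ p⟩) ⟨fun p q h =>
      a2_inj p q (congrArg (fun x : J1 => x.1.1) h), fun x => by
        obtain ⟨p, hp⟩ := a2_mem x.2
        exact ⟨p, Subtype.ext hp.symm⟩⟩
  rw [← this]; simp

theorem a2_comm {x y : H1} (hx : x ∈ J1) (hy : y ∈ J1) : x * y = y * x := by
  obtain ⟨p, rfl⟩ := a2_mem hx
  obtain ⟨q, rfl⟩ := a2_mem hy
  exact Subtype.ext (by rw [a2_mul, a2_mul, add_comm])

theorem a2_tri : ∀ a b c : Fin 9, a ≠ b → b ≠ c → a ≠ c → a.val / 3 = b.val / 3 → b.val / 3 = c.val / 3 →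
    ∃ p, swap a b * swap b c = (a2_W p).1 := by decide +kernel

theorem a2_cj (h x : H1) (a b c : Fin 9) (hx : x.1 = swap a b * swap b c) (h1 : a ≠ b) (h2 : b ≠ c) (h3 : a ≠ c)
    (h4 : a.val / 3 = b.val / 3) (h5 : b.val / 3 = c.val / 3) : h * x * h⁻¹ ∈ J1 := by
  obtain ⟨p, hp⟩ := a2_tri (h.1 a) (h.1 b) (h.1 c) (h.1.injective.ne h1) (h.1.injective.ne h2)
    (h.1.injective.ne h3) ((h.2.2 a b).1 h4) ((h.2.2 b c).1 h5)
  have : h * x * h⁻¹ = a2_W p := Subtype.ext (by
    rw [← hp, swap_apply_apply, swap_apply_apply]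
    show h.1 * x.1 * h.1⁻¹ = _
    rw [hx]; group)
  exact this ▸ a2_WJ p

theorem a2_normal : J1.Normal := ⟨fun x hx h => by
  induction hx using closure_induction with
  | mem x hx =>
    rcases hx with rfl | rfl | rfl
    · exact a2_cj h _ 0 1 2 rfl (by decide) (by decide) (by decide) (by decide) (by decide)
    · exact a2_cj h _ 3 4 5 rfl (by decide) (by decide) (by decide) (by decide) (by decide)
    · exact a2_cj h _ 6 7 8 rfl (by decide) (by decide) (by decide) (by decide) (by decide)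
  | one => simp
  | mul x y _ _ h1 h2 =>
    have := mul_mem h1 h2
    rwa [show h * x * h⁻¹ * (h * y * h⁻¹) = h * (x * y) * h⁻¹ by group] at this
  | inv x _ h1 =>
    have := inv_mem h1
    rwa [show (h * x * h⁻¹)⁻¹ = h * x⁻¹ * h⁻¹ by group] at this⟩

def a2_c : Perm (Fin 9) := (z1 * y1 * u1).1

theorem a2_blk : ∀ a b : Fin 9, a.val / 3 = b.val / 3 ↔ (b = a ∨ b = a2_c a ∨ b = a2_c (a2_c a)) := by
  decide +kernel

theorem a2_162 : Nat.card (centralizer ({a2_c} : Set (Perm (Fin 9)))) = 162 := by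
  rw [Perm.nat_card_centralizer]; decide +kernel

theorem a2_81 : Nat.card (centralizer ({z1 * y1 * u1} : Set H1)) = 81 := by
  set K := centralizer ({a2_c} : Set (Perm (Fin 9))) with hK
  have e : (centralizer ({z1 * y1 * u1} : Set H1)).map H1.subtype = alternatingGroup (Fin 9) ⊓ K := by
    ext g
    simp only [mem_map, mem_inf, hK, mem_centralizer_singleton_iff, Perm.mem_alternatingGroup]
    constructor
    · rintro ⟨x, hx, rfl⟩
      exact ⟨x.2.1, congrArg Subtype.val hx⟩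
    · rintro ⟨h1, h2⟩
      have h3 : ∀ a, g (a2_c a) = a2_c (g a) := fun a => by
        rw [← Perm.mul_apply, h2, Perm.mul_apply]
      refine ⟨⟨g, h1, fun a b => ?_⟩, Subtype.ext h2, rfl⟩
      rw [a2_blk, a2_blk, ← h3, ← h3, g.injective.eq_iff, g.injective.eq_iff, g.injective.eq_iff]
  have h1 := A9R.cz_mul (inf_le_right : alternatingGroup (Fin 9) ⊓ K ≤ K)
  rw [inf_relIndex_right, a2_162, ← e, card_map_of_injective H1.subtype_injective] at h1
  have h4 : (alternatingGroup (Fin 9)).relIndex K ∣ 2 := by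
    have := relIndex_dvd_index_of_normal (alternatingGroup (Fin 9)) K
    rwa [alternatingGroup.index_eq_two] at this
  rcases (Nat.dvd_prime Nat.prime_two).1 h4 with h | h
  · exfalso
    have h5 : (swap 0 3 * swap 1 4 * swap 2 5 : Perm (Fin 9)) ∈ K :=
      mem_centralizer_singleton_iff.2 (by decide +kernel)
    have h6 := Perm.mem_alternatingGroup.1 (relIndex_eq_one.1 h h5)
    revert h6; decide +kernel
  · rw [h] at h1; omega

def a2_w : H1 := ⟨swap 0 3 * swap 3 6 * (swap 1 4 * swap 4 7) * (swap 2 5 * swap 5 8), mem_H1.2 (by decide +kernel)⟩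

theorem a2_wc : a2_w * (z1 * y1 * u1) = z1 * y1 * u1 * a2_w := Subtype.ext (by decide +kernel)

theorem a2_Z : ∀ p, (a2_w * a2_W p).1 = (a2_W p * a2_w).1 →
    ∃ k : Fin 3, (a2_W p).1 = ((z1 * y1 * u1) ^ k.1).1 := by decide +kernel

theorem a2_o : orderOf (z1 * y1 * u1) = 3 := by
  haveI := Fact.mk Nat.prime_three
  exact orderOf_eq_prime (Subtype.ext (by decide +kernel)) (fun h => absurd (congrArg Subtype.val h) (by decide +kernel))

variable {G : Type*} [Group G] [Finite G] {η : H1 →* G}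

omit [Finite G] in
theorem F0.a2_commJ (_h : F0 η) : IsMulCommutative (J1.map η) := ⟨⟨by
  rintro ⟨_, x, hx, rfl⟩ ⟨_, y, hy, rfl⟩
  exact Subtype.ext (by
    show η x * η y = η y * η x
    rw [← map_mul, a2_comm hx hy, map_mul])⟩⟩

omit [Finite G] in
theorem F0.a2_cardJ (h : F0 η) : Nat.card (J1.map η) = 27 := by
  rw [card_map_of_injective h.inj, a2_card]

omit [Finite G] in
theorem F0.a2_norm (h : F0 η) : normalizer ((J1.map η : Subgroup G) : Set G) = η.range := by
  apply le_antisymm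
  · intro g hg
    exact h.nJ g fun x hx => (mem_normalizer_iff.1 hg x).1 hx
  · rintro _ ⟨k, rfl⟩
    rw [mem_normalizer_iff]
    intro x
    constructor
    · rintro ⟨y, hy, rfl⟩
      exact ⟨k * y * k⁻¹, a2_normal.conj_mem y hy k, by simp⟩
    · rintro ⟨y, hy, e⟩
      refine ⟨k⁻¹ * y * k⁻¹⁻¹, a2_normal.conj_mem y hy k⁻¹, ?_⟩
      simp only [map_mul, map_inv, e]; group

theorem F0.cc' (h : F0 η) :
    ∀ g : G, g * η (z1 * y1 * u1) = η (z1 * y1 * u1) * g → g ∈ η.range := by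
  have e : η.range ⊓ centralizer {η (z1 * y1 * u1)} = (centralizer ({z1 * y1 * u1} : Set H1)).map η := by
    ext g
    simp only [mem_inf, mem_map, mem_centralizer_singleton_iff, MonoidHom.mem_range]
    constructor
    · rintro ⟨⟨x, rfl⟩, hx⟩
      exact ⟨x, h.inj (by rw [map_mul η x, hx, ← map_mul]), rfl⟩
    · rintro ⟨x, hx, rfl⟩
      exact ⟨⟨x, rfl⟩, by rw [← map_mul, hx, map_mul]⟩
  have := A9R.cz (J := J1.map η) (z := η (z1 * y1 * u1)) h.a2_commJ h.a2_cardJ
    (mem_map_of_mem η (mul_mem (mul_mem a2_z a2_y) a2_u))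
    (by rw [orderOf_injective η h.inj, a2_o]) (h.core _ a2_o)
    (by rw [h.a2_norm, e, card_map_of_injective h.inj, a2_81]) (by
      rintro _ ⟨x, hx, rfl⟩ hc
      rw [h.a2_norm, e] at hc
      have h1 := hc _ (mem_map_of_mem η (mem_centralizer_singleton_iff.2 a2_wc))
      rw [← map_mul, ← map_mul] at h1
      obtain ⟨p, rfl⟩ := a2_mem hx
      obtain ⟨k, hk⟩ := a2_Z p (congrArg Subtype.val (h.inj h1))
      rw [Subtype.ext hk, map_pow]
      exact pow_mem (mem_zpowers _) _)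
  intro g hg
  rw [← h.a2_norm]
  exact this (mem_centralizer_singleton_iff.2 hg)

theorem FS.cc (h : FS η) :
    ∀ g : G, g * η (z1 * y1 * u1) = η (z1 * y1 * u1) * g → g ∈ η.range := h.toF0.cc'

end Cfsg.Agent.A9T
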