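import Cfsg.Agent.A9T.A
import Cfsg.Agent.A9R.CB

/-! The centraliser of an element of type `b` (helper22): `FS.cb`. -/

set_option autoImplicit false
set_option synthInstance.maxSize 4096

namespace Cfsg.Agent.A9T

open Equiv Subgroup

/-- `(01)(36)(47)(58)`. -/
def a3r : H1 := ⟨swap 0 1 * swap 3 6 * swap 4 7 * swap 5 8, mem_H1.2 (by decide +kernel)⟩

theorem a3_fix (x : H1) (h : x * (y1 * u1) = y1 * u1 * x) (e0 : x.1 0 = 0) (e3 : x.1 3 = 3) (e6 : x.1 6 = 6) :
    x = 1 := by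
  have k : ∀ p, x.1 ((y1 * u1).1 p) = (y1 * u1).1 (x.1 p) := fun p => congrArg (fun g : H1 => g.1 p) h
  have e4 : x.1 4 = 4 := (k 3).trans (by rw [e3]; decide +kernel)
  have e5 : x.1 5 = 5 := (k 4).trans (by rw [e4]; decide +kernel)
  have e7 : x.1 7 = 7 := (k 6).trans (by rw [e6]; decide +kernel)
  have e8 : x.1 8 = 8 := (k 7).trans (by rw [e7]; decide +kernel)
  have t : ∀ p : Fin 9, p = (y1 * u1).1 p → p ≠ 0 → p = 1 ∨ p = 2 := by decide +kernel
  have h1 := t _ (k 1) fun e => absurd (x.1.injective (e.trans e0.symm)) (by decide)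
  have h2 := t _ (k 2) fun e => absurd (x.1.injective (e.trans e0.symm)) (by decide)
  rcases h1 with e1 | e1 <;> rcases h2 with e2 | e2
  · exact absurd (x.1.injective (e1.trans e2.symm)) (by decide)
  · refine Subtype.ext (Equiv.ext fun p => ?_)
    fin_cases p
    exacts [e0, e1, e2, e3, e4, e5, e6, e7, e8]
  · have : x.1 = swap 1 2 := Equiv.ext fun p => by
      fin_cases p
      exacts [e0, e1, e2, e3, e4, e5, e6, e7, e8]
    have hs := (mem_H1.1 x.2).1
    rw [this] at hs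
    exact absurd hs (by decide +kernel)
  · exact absurd (x.1.injective (e1.trans e2.symm)) (by decide)

theorem a3_cen (x : H1) (h : x * (y1 * u1) = y1 * u1 * x) : ∃ e ∈ [1, a3r], ∃ a ∈ [1, z1, z1⁻¹], ∃ b ∈ [1, y1, y1⁻¹],
    ∃ c ∈ [1, u1, u1⁻¹], x = (a * b * c)⁻¹ * e⁻¹ := by
  have k : ∀ p, x.1 ((y1 * u1).1 p) = (y1 * u1).1 (x.1 p) := fun p => congrArg (fun g : H1 => g.1 p) h
  obtain ⟨e, he, a, ha, e0, b, hb, c, hc, e3, e6, e0', cm⟩ := (by decide +kernel : ∀ p0 : Fin 9, p0 = (y1 * u1).1 p0 →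
    ∀ p3 : Fin 9, (y1 * u1).1 p3 ≠ p3 → ∀ p6 : Fin 9, (y1 * u1).1 p6 ≠ p6 → p3.val / 3 ≠ p6.val / 3 →
    ∃ e ∈ [1, a3r], ∃ a ∈ [1, z1, z1⁻¹], e.1 (a.1 p0) = 0 ∧ ∃ b ∈ [1, y1, y1⁻¹], ∃ c ∈ [1, u1, u1⁻¹],
      (e * (a * b * c)).1 p3 = 3 ∧ (e * (a * b * c)).1 p6 = 6 ∧ (e * (a * b * c)).1 p0 = 0 ∧
        e * (a * b * c) * (y1 * u1) = y1 * u1 * (e * (a * b * c))) (x.1 0) (k 0) (x.1 3)
    (fun e => absurd (x.1.injective ((k 3).trans e)) (by decide +kernel)) (x.1 6)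
    (fun e => absurd (x.1.injective ((k 6).trans e)) (by decide +kernel))
    (fun e => absurd (((mem_H1.1 x.2).2 3 6).2 e) (by decide))
  refine ⟨e, he, a, ha, b, hb, c, hc, ?_⟩
  rw [← mul_inv_rev]
  exact eq_inv_of_mul_eq_one_right (a3_fix _ (by rw [mul_assoc, h, ← mul_assoc, cm, mul_assoc]) e0' e3 e6)

theorem a3_mem {a b c : H1} (ha : a ∈ [1, z1, z1⁻¹]) (hb : b ∈ [1, y1, y1⁻¹]) (hc : c ∈ [1, u1, u1⁻¹]) :
    (a * b * c)⁻¹ ∈ J1 := by
  have k : ∀ g ∈ J1, ∀ a ∈ [1, g, g⁻¹], a ∈ J1 := fun g hg a ha => by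
    simp only [List.mem_cons, List.not_mem_nil, or_false] at ha
    rcases ha with rfl | rfl | rfl
    exacts [one_mem _, hg, inv_mem hg]
  exact inv_mem (mul_mem (mul_mem (k _ (subset_closure (by simp)) _ ha) (k _ (subset_closure (by simp)) _ hb))
    (k _ (subset_closure (by simp)) _ hc))

theorem a3_list {x : H1} (hx : x ∈ J1) : ∃ a ∈ [1, z1, z1⁻¹], ∃ b ∈ [1, y1, y1⁻¹], ∃ c ∈ [1, u1, u1⁻¹],
    x = (a * b * c)⁻¹ := by
  have k : ∀ g : H1, (∀ s ∈ [z1, y1, u1], s * g = g * s) → x * g = g * x := fun g hg =>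
    mem_centralizer_singleton_iff.1 ((closure_le (centralizer {g})).2 (by
      rintro s (rfl | rfl | rfl) <;> exact mem_centralizer_singleton_iff.2 (hg _ (by simp))) hx)
  obtain ⟨e, he, a, ha, b, hb, c, hc, rfl⟩ := a3_cen x (k _ (by decide +kernel))
  simp only [List.mem_cons (a := e), List.not_mem_nil, or_false] at he
  rcases he with rfl | rfl
  · exact ⟨a, ha, b, hb, c, hc, by rw [inv_one, mul_one]⟩
  · exact absurd (k z1 (by decide +kernel)) ((by decide +kernel : ∀ a ∈ [1, z1, z1⁻¹], ∀ b ∈ [1, y1, y1⁻¹],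
      ∀ c ∈ [1, u1, u1⁻¹], (a * b * c)⁻¹ * a3r⁻¹ * z1 ≠ z1 * ((a * b * c)⁻¹ * a3r⁻¹)) a ha b hb c hc)

theorem a3_card : Nat.card J1 = 27 := by
  let L : List H1 := [1, z1, z1⁻¹].flatMap fun a => [1, y1, y1⁻¹].flatMap fun b => [1, u1, u1⁻¹].map fun c => (a * b * c)⁻¹
  have : (J1 : Set H1) = L.toFinset := Set.ext fun x => by
    simp only [L, Finset.mem_coe, List.mem_toFinset, List.mem_flatMap, List.mem_map]
    exact ⟨fun hx => by obtain ⟨a, ha, b, hb, c, hc, e⟩ := a3_list hx; exact ⟨a, ha, b, hb, c, hc, e.symm⟩,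
      fun ⟨a, ha, b, hb, c, hc, e⟩ => e ▸ a3_mem ha hb hc⟩
  change Nat.card (J1 : Set H1) = 27
  rw [this, Nat.card_coe_set_eq, Set.ncard_coe_finset, List.toFinset_card_of_nodup (by
    refine List.Nodup.of_map (fun g : H1 => (g.1 0, g.1 3, g.1 6)) ?_
    decide +kernel)]
  rfl

theorem a3_all (P : H1 → Prop) (h : ∀ a ∈ [1, z1, z1⁻¹], ∀ b ∈ [1, y1, y1⁻¹], ∀ c ∈ [1, u1, u1⁻¹], P (a * b * c)⁻¹) :
    ∀ x ∈ J1, P x := fun x hx => by
  obtain ⟨a, ha, b, hb, c, hc, rfl⟩ := a3_list hx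
  exact h a ha b hb c hc

variable {G : Type*} [Group G] [Finite G] {η : H1 →* G}

theorem FS.cb (h : FS η) : ∀ g : G, g * η (y1 * u1) = η (y1 * u1) * g → g ∈ η.range := by
  have := Nat.fact_prime_three
  have gens : ∀ x ∈ J1, ∀ s ∈ [z1, y1, u1], s * x = x * s := a3_all _ (by decide +kernel)
  have cm : ∀ x ∈ J1, ∀ y ∈ J1, x * y = y * x := fun x hx y hy =>
    mem_centralizer_singleton_iff.1 ((closure_le (centralizer {y})).2 (by
      rintro s (rfl | rfl | rfl) <;> exact mem_centralizer_singleton_iff.2 (gens y hy _ (by simp))) hx)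
  have hb : y1 * u1 ∈ J1 := mul_mem (subset_closure (by simp)) (subset_closure (by simp))
  have card : Nat.card (J1.map η) = 27 := by rw [card_map_of_injective h.inj, a3_card]
  have nJ : ∀ g ∈ normalizer ((J1.map η : Subgroup G) : Set G), g ∈ η.range := fun g hg =>
    h.nJ g fun x hx => (mem_normalizer_iff.1 hg x).1 hx
  have hN : ∀ g ∈ normalizer ((J1.map η : Subgroup G) : Set G), g * η (y1 * u1) = η (y1 * u1) * g →
      g ∈ J1.map η ∨ g * (η a3r)⁻¹ ∈ J1.map η := fun g hg ee => by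
    obtain ⟨x, rfl⟩ := nJ g hg
    obtain ⟨e, he, a, ha, b, hb, c, hc, rfl⟩ := a3_cen x (h.inj (by rw [map_mul η x, map_mul η _ x]; exact ee))
    clear ee
    simp only [List.mem_cons, List.not_mem_nil, or_false] at he
    rcases he with rfl | rfl
    · exact .inl (mem_map_of_mem η (by rw [inv_one, mul_one]; exact a3_mem ha hb hc))
    · refine .inr ?_
      rw [← map_inv, ← map_mul, mul_assoc, show a3r⁻¹ * a3r⁻¹ = 1 by decide +kernel, mul_one]
      exact mem_map_of_mem η (a3_mem ha hb hc)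
  have JC : J1.map η ≤ centralizer {η (y1 * u1)} := by
    rintro _ ⟨x, hx, rfl⟩
    exact mem_centralizer_singleton_iff.2 (by rw [← map_mul, cm x hx _ hb, map_mul])
  intro g hg
  refine nJ g (A9R.cb (r := η a3r) ⟨⟨?_⟩⟩ ?_ card (mem_map_of_mem η hb)
    (fun e => absurd (h.inj (e.trans (map_one η).symm)) (by decide +kernel)) (fun d => ?_)
    (h.core _ (orderOf_eq_prime (by rw [pow_three']; decide +kernel) (by decide +kernel)))
    (by rw [← map_mul, ← map_mul]; exact congrArg η (by decide +kernel)) ?_ hN (mem_centralizer_singleton_iff.2 hg))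
  · rintro ⟨_, x, hx, rfl⟩ ⟨_, y, hy, rfl⟩
    exact Subtype.ext (by change η x * η y = η y * η x; rw [← map_mul, cm x hx y hy, map_mul])
  · rintro _ ⟨x, hx, rfl⟩
    rw [← map_pow, pow_three', a3_all (fun x => x * x * x = 1) (by decide +kernel) x hx, map_one]
  · have d' := Sylow.prime_pow_dvd_card_normalizer (p := 3) (n := 3) (H := (J1.map η).subgroupOf
      (centralizer {η (y1 * u1)})) d (by rw [Nat.card_congr (subgroupOfEquivOfLe JC).toEquiv, card]; rfl)
    rw [← subgroupOf_normalizer_eq JC, ← inf_subgroupOf_right,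
      Nat.card_congr (subgroupOfEquivOfLe inf_le_right).toEquiv] at d'
    have le : ((normalizer ((J1.map η : Subgroup G) : Set G) ⊓ centralizer {η (y1 * u1)} : Subgroup G) : Set G) ⊆
        (J1.map η : Set G) ∪ (· * η a3r) '' (J1.map η : Set G) := fun g hg =>
      (hN g hg.1 (mem_centralizer_singleton_iff.1 hg.2)).imp id fun k => ⟨_, k, by simp⟩
    have c1 : (J1.map η : Set G).ncard = 27 := (Nat.card_coe_set_eq _).symm.trans card
    have := (Set.ncard_le_ncard le).trans ((Set.ncard_union_le _ _).trans (add_le_add le_rfl (Set.ncard_image_le)))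
    rw [c1, ← Nat.card_coe_set_eq] at this
    exact absurd ((Nat.le_of_dvd Nat.card_pos d').trans this) (by norm_num)
  · rintro _ ⟨x, hx, rfl⟩
    rw [← map_inv, ← map_mul, ← map_mul, ← map_mul, ← MonoidHom.map_zpowers]
    refine mem_map_of_mem η ?_
    rcases a3_all (fun x => a3r * x * a3r⁻¹ * x = 1 ∨ a3r * x * a3r⁻¹ * x = y1 * u1 ∨ a3r * x * a3r⁻¹ * x = (y1 * u1)⁻¹)
      (by decide +kernel) x hx with e | e | e <;> rw [e]
    exacts [one_mem _, mem_zpowers _, inv_mem (mem_zpowers _)]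

end Cfsg.Agent.A9T
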