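import Cfsg.Agent.A9T.A

/-! Finite facts on `H1` for the piece A4 (helper11). -/

set_option autoImplicit false

namespace Cfsg.Agent.A9T

open Equiv Subgroup

/-- Elements of `J1`. -/
def a4w (i j k : Fin 3) : H1 := z1 ^ i.val * y1 ^ j.val * u1 ^ k.val

theorem a4w_mem (i j k : Fin 3) : a4w i j k ∈ J1 :=
  J1.mul_mem (J1.mul_mem (J1.pow_mem (subset_closure (by simp)) _) (J1.pow_mem (subset_closure (by simp)) _))
    (J1.pow_mem (subset_closure (by simp)) _)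

theorem a4w_mul : ∀ i j k i' j' k' : Fin 3, a4w i j k * a4w i' j' k' = a4w (i + i') (j + j') (k + k') := by
  decide +kernel

theorem a4w_inv : ∀ i j k : Fin 3, (a4w i j k)⁻¹ = a4w (-i) (-j) (-k) := by decide +kernel

theorem a4_mem {x : H1} (hx : x ∈ J1) : ∃ i j k, x = a4w i j k := by
  induction hx using closure_induction with
  | mem x hx =>
    rcases hx with rfl | rfl | rfl
    · exact ⟨1, 0, 0, by decide +kernel⟩
    · exact ⟨0, 1, 0, by decide +kernel⟩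
    · exact ⟨0, 0, 1, by decide +kernel⟩
  | one => exact ⟨0, 0, 0, by decide +kernel⟩
  | mul x y _ _ hx hy =>
    obtain ⟨i, j, k, rfl⟩ := hx
    obtain ⟨i', j', k', rfl⟩ := hy
    exact ⟨_, _, _, a4w_mul ..⟩
  | inv x _ hx =>
    obtain ⟨i, j, k, rfl⟩ := hx
    exact ⟨_, _, _, a4w_inv ..⟩

theorem a4w_inj : ∀ i j k : Fin 3, a4w i j k = 1 → i = 0 ∧ j = 0 ∧ k = 0 := by decide +kernel

theorem a4_card : Nat.card J1 = 27 := by
  have : Function.Bijective (fun p : Fin 3 × Fin 3 × Fin 3 => (⟨a4w p.1 p.2.1 p.2.2, a4w_mem _ _ _⟩ : J1)) := by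
    refine ⟨?_, ?_⟩
    · rintro ⟨i, j, k⟩ ⟨i', j', k'⟩ h
      have h1 : a4w i j k = a4w i' j' k' := congrArg Subtype.val h
      have h2 : a4w (i + -i') (j + -j') (k + -k') = 1 := by
        rw [← a4w_mul, ← a4w_inv, h1, mul_inv_cancel]
      obtain ⟨a, b, c⟩ := a4w_inj _ _ _ h2
      rw [add_neg_eq_zero] at a b c
      rw [a, b, c]
    · rintro ⟨x, hx⟩
      obtain ⟨i, j, k, rfl⟩ := a4_mem hx
      exact ⟨(i, j, k), rfl⟩
  rw [← Nat.card_congr (Equiv.ofBijective _ this)]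
  simp

theorem a4_tri : ∀ a b : Fin 9, a.val / 3 = b.val / 3 → a ≠ b → ∀ c : Fin 9, b.val / 3 = c.val / 3 → b ≠ c → a ≠ c →
    ∃ i j k : Fin 3, swap a b * swap b c = (a4w i j k).1 := by decide +kernel

theorem a4_gen (h x : H1) (a b c : Fin 9) (hx : x.1 = swap a b * swap b c) (h1 : a.val / 3 = b.val / 3)
    (h2 : b.val / 3 = c.val / 3) (ab : a ≠ b) (bc : b ≠ c) (ac : a ≠ c) : h * x * h⁻¹ ∈ J1 := by
  obtain ⟨i, j, k, e⟩ := a4_tri (h.1 a) (h.1 b) ((h.2.2 a b).1 h1) (h.1.injective.ne ab) (h.1 c) ((h.2.2 b c).1 h2)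
    (h.1.injective.ne bc) (h.1.injective.ne ac)
  have : h * x * h⁻¹ = a4w i j k := by
    apply Subtype.ext
    rw [← e, swap_apply_apply, swap_apply_apply]
    show h.1 * x.1 * h.1⁻¹ = _
    rw [hx]; group
  rw [this]; exact a4w_mem _ _ _

theorem a4_nrm (h : H1) {x : H1} (hx : x ∈ J1) : h * x * h⁻¹ ∈ J1 := by
  induction hx using closure_induction with
  | mem x hx =>
    rcases hx with rfl | rfl | rfl
    · exact a4_gen h _ 0 1 2 rfl (by decide) (by decide) (by decide) (by decide) (by decide)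
    · exact a4_gen h _ 3 4 5 rfl (by decide) (by decide) (by decide) (by decide) (by decide)
    · exact a4_gen h _ 6 7 8 rfl (by decide) (by decide) (by decide) (by decide) (by decide)
  | one => simp
  | mul x y _ _ hx hy =>
    have := J1.mul_mem hx hy
    rwa [show h * x * h⁻¹ * (h * y * h⁻¹) = h * (x * y) * h⁻¹ by group] at this
  | inv x _ hx =>
    have := J1.inv_mem hx
    rwa [show (h * x * h⁻¹)⁻¹ = h * x⁻¹ * h⁻¹ by group] at this

/-- `(3 6 4 7)(5 8)`. -/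
def a4d : H1 := ⟨swap 3 6 * swap 6 4 * swap 4 7 * swap 5 8, mem_H1.2 (by decide +kernel)⟩

/-- The complement. -/
def a4f : DihedralGroup 4 → H1
  | .r i => a4d ^ i.val
  | .sr i => k1 * a4d ^ i.val

theorem a4f_mul : ∀ a b : DihedralGroup 4, a4f (a * b) = a4f a * a4f b := by decide +kernel

/-- The complement as a homomorphism. -/
def a4i : DihedralGroup 4 →* H1 := MonoidHom.mk' a4f a4f_mul

theorem a4_u : ∀ δ : DihedralGroup 4, ∀ i j k : Fin 3, a4f δ = a4w i j k → δ = 1 := by decide +kernel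

theorem a4_z : ∀ δ : DihedralGroup 4, a4f δ * z1 * (a4f δ)⁻¹ = z1 ∨ a4f δ * z1 * (a4f δ)⁻¹ = z1⁻¹ := by
  decide +kernel

theorem a4_c : ∀ δ : DihedralGroup 4, a4f δ * y1 = y1 * a4f δ → a4f δ * u1 = u1 * a4f δ → δ = 1 := by
  decide +kernel

theorem a4_A : ∀ a : Fin 9, a.val / 3 ≠ 0 → ∀ b : Fin 9, a.val / 3 = b.val / 3 → a ≠ b → ∀ c : Fin 9, c.val / 3 ≠ 0 →
    a.val / 3 ≠ c.val / 3 → ∀ d : Fin 9, c.val / 3 = d.val / 3 → c ≠ d → ∃ (j k : Fin 3) (δ : DihedralGroup 4),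
      (a4w 0 j k * a4f δ).1 3 = a ∧ (a4w 0 j k * a4f δ).1 4 = b ∧ (a4w 0 j k * a4f δ).1 6 = c ∧
        (a4w 0 j k * a4f δ).1 7 = d := by decide +kernel

/-- Elements of the first `S₃`. -/
def a4s (i : Fin 3) (e : Fin 2) : Perm (Fin 9) := (a4w i 0 0).1 * swap 0 1 ^ e.val

theorem a4_B : ∀ a : Fin 9, a.val / 3 ≠ 1 → a.val / 3 ≠ 2 → ∀ b : Fin 9, a.val / 3 = b.val / 3 → a ≠ b →
    ∀ c : Fin 9, a.val / 3 = c.val / 3 → a ≠ c → b ≠ c → ∃ (i : Fin 3) (e : Fin 2),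
      a4s i e 0 = a ∧ a4s i e 1 = b ∧
        a4s i e 2 = c := by decide +kernel

theorem a4_B2 : ∀ (i : Fin 3) (e : Fin 2), (∀ x : Fin 9, 3 ≤ x.val → a4s i e x = x) ∧
    (Perm.sign (a4s i e) = 1 → e = 0) := by decide +kernel

theorem a4_fix (h : H1) (h3 : h.1 3 = 3) (h4 : h.1 4 = 4) (h6 : h.1 6 = 6) (h7 : h.1 7 = 7) : h ∈ J1 := by
  have b := h.2.2
  have inj := h.1.injective
  have h5 : h.1 5 = 5 := by
    have e1 := (b 3 5).1 (by decide)
    have e2 := inj.ne (show (3 : Fin 9) ≠ 5 by decide)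
    have e3 := inj.ne (show (4 : Fin 9) ≠ 5 by decide)
    rw [h3] at e1 e2; rw [h4] at e3
    revert e1 e2 e3; generalize h.1 5 = x; revert x; decide
  have h8 : h.1 8 = 8 := by
    have e1 := (b 6 8).1 (by decide)
    have e2 := inj.ne (show (6 : Fin 9) ≠ 8 by decide)
    have e3 := inj.ne (show (7 : Fin 9) ≠ 8 by decide)
    rw [h6] at e1 e2; rw [h7] at e3
    revert e1 e2 e3; generalize h.1 8 = x; revert x; decide
  obtain ⟨i, e, e0, e1, e2⟩ := a4_B (h.1 0) (fun e => absurd ((b 0 3).2 (by rw [h3, e]; decide)) (by decide))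
    (fun e => absurd ((b 0 6).2 (by rw [h6, e]; decide)) (by decide)) (h.1 1) ((b 0 1).1 (by decide))
    (inj.ne (by decide)) (h.1 2) ((b 0 2).1 (by decide)) (inj.ne (by decide)) (inj.ne (by decide))
  obtain ⟨f1, f2⟩ := a4_B2 i e
  have hh : a4s i e = h.1 := by
    ext1 x
    fin_cases x
    · exact e0
    · exact e1
    · exact e2
    · exact (f1 _ (by decide)).trans h3.symm
    · exact (f1 _ (by decide)).trans h4.symm
    · exact (f1 _ (by decide)).trans h5.symm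
    · exact (f1 _ (by decide)).trans h6.symm
    · exact (f1 _ (by decide)).trans h7.symm
    · exact (f1 _ (by decide)).trans h8.symm
  have he := f2 (hh ▸ h.2.1)
  subst he
  have : h = a4w i 0 0 := Subtype.ext (by rw [← hh]; simp [a4s])
  rw [this]; exact a4w_mem _ _ _

theorem a4_ex (h : H1) (hz : h * z1 * h⁻¹ ∈ zpowers z1) : ∃ δ : DihedralGroup 4, h * (a4i δ)⁻¹ ∈ J1 := by
  have b := h.2.2
  have inj := h.1.injective
  have h0 : (h.1 0).val / 3 = 0 := by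
    by_contra hne
    obtain ⟨n, hn⟩ := hz
    have e1 : z1.1 (h.1 0) = h.1 0 := by
      revert hne; generalize h.1 0 = x; revert x; decide
    have e2 : (z1.1 ^ n) (h.1 0) = h.1 0 := Perm.zpow_apply_eq_self_of_apply_eq_self e1 n
    have e3 : z1.1 ^ n = h.1 * z1.1 * h.1⁻¹ := by
      have := congrArg Subtype.val hn
      simpa using this
    rw [e3] at e2
    have e4 : h.1 (z1.1 0) = h.1 0 := by simpa using e2
    exact absurd (inj e4) (by decide)
  obtain ⟨j, k, δ, e3, e4, e6, e7⟩ := a4_A (h.1 3) (fun e => absurd ((b 0 3).2 (by rw [h0, e])) (by decide)) (h.1 4)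
    ((b 3 4).1 (by decide)) (inj.ne (by decide)) (h.1 6) (fun e => absurd ((b 0 6).2 (by rw [h0, e])) (by decide))
    (fun e => absurd ((b 3 6).2 e) (by decide)) (h.1 7) ((b 6 7).1 (by decide)) (inj.ne (by decide))
  generalize hw : a4w 0 j k * a4f δ = w at e3 e4 e6 e7
  have key : ∀ x : Fin 9, w.1 x = h.1 x → (w⁻¹ * h).1 x = x := fun x e => by
    show w.1⁻¹ (h.1 x) = x
    rw [← e]; simp
  have hJ := a4_fix (w⁻¹ * h) (key _ e3) (key _ e4) (key _ e6) (key _ e7)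
  refine ⟨δ, ?_⟩
  have := J1.mul_mem (a4w_mem 0 j k) (a4_nrm (a4f δ) hJ)
  rw [← hw] at this
  have e : a4w 0 j k * (a4f δ * ((a4w 0 j k * a4f δ)⁻¹ * h) * (a4f δ)⁻¹) = h * (a4i δ)⁻¹ := by
    show _ = h * (a4f δ)⁻¹
    group
  rwa [e] at this

/-- Conjugators for the elements of type `b`. -/
def a4L : List H1 := [1, k1, k4, k1 * k4, s1, s1 * k1, s1 * k4, s1 * k1 * k4, t1, t1 * k1, t1 * k4, t1 * k1 * k4]

theorem a4_b : ∀ i j k : Fin 3, (j ≠ 0 ∨ k ≠ 0) → ∃ m : Fin 3, ∃ h ∈ a4L,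
    z1 ^ m.val * a4w i j k = h * (y1 * u1) * h⁻¹ := by decide +kernel

end Cfsg.Agent.A9T
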