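import Cfsg.Agent.A9T.A5h
import Cfsg.Agent.A9R.S6N

/-! The normalised splitting of `N(⟨z⟩)`. -/

set_option autoImplicit false

namespace Cfsg.Agent.A9T

open Equiv Subgroup

theorem G0.sig {G : Type*} [Group G] [Finite G] {η : H1 →* G} (h : G0 η)
    (f : normalizer (zpowers (η z1) : Set G) →* Perm (Fin 6)) (hs : Function.Surjective f)
    (hk : ∀ g, f g = 1 ↔ (g : G) ∈ zpowers (η z1)) :
    ∃ σ : Perm (Fin 6) →* G, Function.Injective σ ∧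
      (∀ π, σ π * η z1 * (σ π)⁻¹ = if Perm.sign π = 1 then η z1 else (η z1)⁻¹) ∧
      (∀ g, g * η z1 * g⁻¹ ∈ zpowers (η z1) → ∃ π, ∃ u ∈ zpowers (η z1), g = u * σ π) ∧
      σ (swap 0 1) = η k1 ∧ σ (swap 1 2) = η k2 ∧ σ (swap 3 4) = η k4 ∧ σ (swap 4 5) = η k5 :=
  h.sig13 A9R.s6n f hs hk

end Cfsg.Agent.A9T
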