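import Cfsg.Agent.A9T.A
import Cfsg.Agent.A9R.SP

/-! The normalised complement `σ : S₆ → N(⟨z⟩)`, given the normalisation lemma in `S₆`. -/

set_option autoImplicit false

namespace Cfsg.Agent.A9T

open Equiv Equiv.Perm Subgroup Function Cfsg.Agent.A9R

def a5el (p : Fin 3 × Fin 3 × Fin 3) : H1 := z1 ^ p.1.val * y1 ^ p.2.1.val * u1 ^ p.2.2.val

theorem a5_mul : ∀ p q, a5el p * a5el q = a5el (p + q) ∧ (a5el p = a5el q → p = q) := by decide +kernel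

theorem a5_p : ∀ p, a5el p ^ 3 = 1 ∧ (a5el p)⁻¹ = a5el (-p) := by decide +kernel

def a5J : Subgroup H1 where
  carrier := {g | ∃ p, g = a5el p}
  one_mem' := ⟨0, by decide +kernel⟩
  mul_mem' := by
    rintro _ _ ⟨p, rfl⟩ ⟨q, rfl⟩
    exact ⟨_, (a5_mul p q).1⟩
  inv_mem' := by
    rintro _ ⟨p, rfl⟩
    exact ⟨_, (a5_p p).2⟩

theorem a5_card : Nat.card a5J = 27 := by
  have : Bijective (fun p => (⟨a5el p, p, rfl⟩ : a5J)) :=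
    ⟨fun p q h => (a5_mul p q).2 (congrArg Subtype.val h), fun ⟨_, p, h⟩ => ⟨p, Subtype.ext h.symm⟩⟩
  rw [← Nat.card_congr (Equiv.ofBijective _ this)]; simp

theorem a5_f : z1 = a5el (1, 0, 0) ∧ z1 ≠ 1 ∧ z1 ^ 3 = 1 ∧ (∀ k ∈ [k1, k2, k4, k5], k * z1 * k⁻¹ = z1⁻¹ ∧ k * k = 1) ∧
    (k1 * k2) ^ 3 = 1 ∧ (k4 * k5) ^ 3 = 1 ∧ k1 * k4 = k4 * k1 ∧ k1 * k5 = k5 * k1 ∧ k2 * k4 = k4 * k2 ∧ k2 * k5 = k5 * k2 ∧
    (∀ x ∈ [k1 * k2⁻¹, k4 * k5⁻¹], x ≠ 1 ∧ x ≠ z1 ∧ x ≠ z1⁻¹) := by decide +kernel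

variable {G : Type*} [Group G]

theorem G0.sig_of [Finite G] {η : H1 →* G} (h : G0 η)
    (s6n : ∀ {c1 c2 c4 c5 : Perm (Fin 6)}, c1 * c1 = 1 → c2 * c2 = 1 → c4 * c4 = 1 → c5 * c5 = 1 → (c1 * c2) ^ 3 = 1 →
      (c4 * c5) ^ 3 = 1 → c1 ≠ c2 → c4 ≠ c5 → c1 * c4 = c4 * c1 → c1 * c5 = c5 * c1 → c2 * c4 = c4 * c2 →
      c2 * c5 = c5 * c2 → ∃ α : Perm (Fin 6) ≃* Perm (Fin 6), α (swap 0 1) = c1 ∧ α (swap 1 2) = c2 ∧
        α (swap 3 4) = c4 ∧ α (swap 4 5) = c5 ∧ ∀ π, sign (α π) = sign π)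
    (f : normalizer (zpowers (η z1) : Set G) →* Perm (Fin 6)) (hs : Surjective f)
    (hk : ∀ g, f g = 1 ↔ (g : G) ∈ zpowers (η z1)) :
    ∃ σ : Perm (Fin 6) →* G, Injective σ ∧ (∀ π, σ π * η z1 * (σ π)⁻¹ = if sign π = 1 then η z1 else (η z1)⁻¹) ∧
      (∀ g, g * η z1 * g⁻¹ ∈ zpowers (η z1) → ∃ π, ∃ u ∈ zpowers (η z1), g = u * σ π) ∧
      σ (swap 0 1) = η k1 ∧ σ (swap 1 2) = η k2 ∧ σ (swap 3 4) = η k4 ∧ σ (swap 4 5) = η k5 := by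
  obtain ⟨f0, f1, f3, fk, e12, e45, c14, c15, c24, c25, fn⟩ := a5_f
  have inj := h.inj
  have h3 : η z1 ^ 3 = 1 := by rw [← map_pow, f3, map_one]
  have iv : ∀ k ∈ [k1, k2, k4, k5], η k * η z1 * (η k)⁻¹ = (η z1)⁻¹ := fun k hk => by
    rw [← map_inv, ← map_mul, ← map_mul, (fk k hk).1, map_inv]
  have nrm : ∀ {g : G}, g * η z1 * g⁻¹ ∈ zpowers (η z1) → g ∈ normalizer (zpowers (η z1) : Set G) := fun {g} hg =>
    mem_normalizer_fintype fun n hn => by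
      obtain ⟨i, rfl⟩ := hn
      show g * η z1 ^ i * g⁻¹ ∈ zpowers (η z1)
      rw [← conj_zpow]; exact zpow_mem hg i
  obtain ⟨σ0, s1, s2, s3⟩ := sp (J := a5J.map η) (a := η z1)
    ⟨⟨by
      rintro ⟨_, _, ⟨p, rfl⟩, rfl⟩ ⟨_, _, ⟨q, rfl⟩, rfl⟩
      apply Subtype.ext
      show η _ * η _ = η _ * η _
      rw [← map_mul, ← map_mul, (a5_mul p q).1, (a5_mul q p).1, add_comm]⟩⟩
    (by rintro _ ⟨_, ⟨p, rfl⟩, rfl⟩; rw [← map_pow, (a5_p p).1, map_one])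
    (by rw [card_map_of_injective inj, a5_card]) ⟨z1, ⟨_, f0⟩, rfl⟩ (fun e => f1 (inj (e.trans (map_one η).symm)))
    f hs hk ⟨η k1, iv k1 (by simp)⟩
  have mN : ∀ k ∈ [k1, k2, k4, k5], η k ∈ normalizer (zpowers (η z1) : Set G) := fun k hk =>
    nrm (by rw [iv k hk]; exact inv_mem (mem_zpowers _))
  let K : Subgroup H1 := (normalizer (zpowers (η z1) : Set G)).comap η
  let F : K →* Perm (Fin 6) := f.comp ((η.comp K.subtype).codRestrict _ fun x => x.2)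
  have m1 := mN k1 (by simp)
  have m2 := mN k2 (by simp)
  have m4 := mN k4 (by simp)
  have m5 := mN k5 (by simp)
  have sq : ∀ k (hk : k ∈ [k1, k2, k4, k5]), F ⟨k, mN k hk⟩ * F ⟨k, mN k hk⟩ = 1 := fun k hk => by
    rw [← map_mul, ← map_one F]; exact congrArg F (Subtype.ext (fk k hk).2)
  have cu : ∀ x y : K, ((x : H1) * y) ^ 3 = 1 → (F x * F y) ^ 3 = 1 := fun x y e => by
    rw [← map_mul, ← map_pow, ← map_one F]; exact congrArg F (Subtype.ext e)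
  have cm : ∀ x y : K, (x : H1) * y = y * x → F x * F y = F y * F x := fun x y e => by
    rw [← map_mul, ← map_mul]; exact congrArg F (Subtype.ext e)
  have ne : ∀ x y : K, (x : H1) * (y : H1)⁻¹ ∈ [k1 * k2⁻¹, k4 * k5⁻¹] → F x ≠ F y := fun x y hm e => by
    have : F (x * y⁻¹) = 1 := by rw [map_mul, map_inv, e, mul_inv_cancel]
    have t : η ((x : H1) * (y : H1)⁻¹) ∈ zpowers (η z1) := (hk _).1 this
    obtain ⟨n1, n2, n3⟩ := fn _ hm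
    rcases sp_tri h3 t with t | t | t
    · exact n1 (inj (t.trans (map_one η).symm))
    · exact n2 (inj t)
    · exact n3 (inj (t.trans (map_inv η _).symm))
  obtain ⟨α, a1, a2, a4, a5, as⟩ := s6n (sq k1 (by simp)) (sq k2 (by simp)) (sq k4 (by simp)) (sq k5 (by simp))
    (cu ⟨k1, m1⟩ ⟨k2, m2⟩ e12) (cu ⟨k4, m4⟩ ⟨k5, m5⟩ e45) (ne ⟨k1, m1⟩ ⟨k2, m2⟩ (by simp)) (ne ⟨k4, m4⟩ ⟨k5, m5⟩ (by simp))
    (cm ⟨k1, m1⟩ ⟨k4, m4⟩ c14) (cm ⟨k1, m1⟩ ⟨k5, m5⟩ c15) (cm ⟨k2, m2⟩ ⟨k4, m4⟩ c24) (cm ⟨k2, m2⟩ ⟨k5, m5⟩ c25)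
  have un : ∀ x : K, ∃ u ∈ zpowers (η z1), σ0 (F x) = u * η x := fun x => by
    obtain ⟨m, e⟩ := s1 (F x)
    refine ⟨σ0 (F x) * (η x)⁻¹, (hk (⟨_, m⟩ * ⟨η x, x.2⟩⁻¹)).1 ?_, by group⟩
    rw [map_mul, map_inv, e]; exact mul_inv_cancel _
  have zc : ∀ u ∈ zpowers (η z1), ∀ w ∈ zpowers (η z1), u * w = w * u := by
    rintro _ ⟨i, rfl⟩ _ ⟨j, rfl⟩; exact (Commute.zpow_zpow_self _ i j).eq
  have z3 : ∀ u ∈ zpowers (η z1), u * u * u = 1 := fun u hu => by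
    have : η z1 * η z1 * η z1 = 1 := by rw [← h3]; simp [pow_succ]
    rcases sp_tri h3 hu with rfl | rfl | rfl
    · simp
    · exact this
    · rw [← mul_inv_rev, ← mul_inv_rev, ← mul_assoc, this, inv_one]
  have ivu : ∀ k ∈ [k1, k2, k4, k5], ∀ u ∈ zpowers (η z1), η k * u = u⁻¹ * η k := by
    rintro k hk' _ ⟨i, rfl⟩
    show η k * η z1 ^ i = (η z1 ^ i)⁻¹ * η k
    rw [← inv_zpow, ← iv k hk', conj_zpow]; group
  have eq : ∀ k (hk : k ∈ [k1, k2, k4, k5]) l (hl : l ∈ [k1, k2, k4, k5]), k * l = l * k → ∀ u ∈ zpowers (η z1),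
      ∀ w ∈ zpowers (η z1), σ0 (F ⟨k, mN k hk⟩) = u * η k → σ0 (F ⟨l, mN l hl⟩) = w * η l → u = w := by
    intro k hk' l hl c u hu w hw e1 e2
    have := congrArg σ0 (cm ⟨k, mN k hk'⟩ ⟨l, mN l hl⟩ c)
    rw [map_mul, map_mul, e1, e2, mul_assoc, ← mul_assoc (η k), ivu k hk' w hw, mul_assoc w, ← mul_assoc (η l),
      ivu l hl u hu, mul_assoc, mul_assoc, ← map_mul, ← map_mul, c, ← mul_assoc, ← mul_assoc] at this
    have t := mul_right_cancel this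
    have t3 := z3 _ (mul_mem hu (inv_mem hw))
    have : u * w⁻¹ * (u * w⁻¹) = 1 := by
      conv_lhs => arg 2; rw [t]
      group
    rw [this, one_mul] at t3
    exact mul_inv_eq_one.1 t3
  obtain ⟨u, hu, e1⟩ := un ⟨k1, m1⟩
  obtain ⟨u2, hu2, e2⟩ := un ⟨k2, m2⟩
  obtain ⟨u4, hu4, e4⟩ := un ⟨k4, m4⟩
  obtain ⟨u5, hu5, e5⟩ := un ⟨k5, m5⟩
  obtain rfl := eq k1 (by simp) k4 (by simp) c14 u hu u4 hu4 e1 e4
  obtain rfl := eq k1 (by simp) k5 (by simp) c15 u hu u5 hu5 e1 e5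
  obtain rfl := eq k4 (by simp) k2 (by simp) c24.symm u hu u2 hu2 e4 e2
  have fin : ∀ k ∈ [k1, k2, k4, k5], u * (u * η k) * u⁻¹ = η k := fun k hk' => by
    rw [mul_assoc, mul_assoc, ivu k hk' _ (inv_mem hu), inv_inv, ← mul_assoc, ← mul_assoc, z3 u hu, one_mul]
  let σ : Perm (Fin 6) →* G := (MulAut.conj u).toMonoidHom.comp (σ0.comp α.toMonoidHom)
  have hσ : ∀ π, σ π = u * σ0 (α π) * u⁻¹ := fun _ => rfl
  have i0 : Injective σ0 := fun x y e => by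
    obtain ⟨m, ex⟩ := s1 x
    obtain ⟨m', ey⟩ := s1 y
    rw [← ex, ← ey]; exact congrArg f (Subtype.ext e)
  have ua := zc u hu _ (mem_zpowers _)
  refine ⟨σ, (MulAut.conj u).injective.comp (i0.comp α.injective), fun π => ?_, fun g hg => ?_,
    by rw [hσ, a1, e1]; exact fin k1 (by simp), by rw [hσ, a2, e2]; exact fin k2 (by simp),
    by rw [hσ, a4, e4]; exact fin k4 (by simp), by rw [hσ, a5, e5]; exact fin k5 (by simp)⟩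
  · have : σ π * η z1 * (σ π)⁻¹ = u * (σ0 (α π) * (u⁻¹ * (η z1 * u)) * (σ0 (α π))⁻¹) * u⁻¹ := by rw [hσ]; group
    rw [this, ← ua, inv_mul_cancel_left, s2, as]
    split_ifs
    · rw [ua, mul_inv_cancel_right]
    · rw [zc u hu _ (inv_mem (mem_zpowers _)), mul_inv_cancel_right]
  · obtain ⟨π, w, hw, e⟩ := s3 (u⁻¹ * g * u)
      (mul_mem (mul_mem (inv_mem (le_normalizer hu)) (nrm hg)) (le_normalizer hu))
    refine ⟨α.symm π, u * w * u⁻¹, mul_mem (mul_mem hu hw) (inv_mem hu), ?_⟩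
    rw [hσ, α.apply_symm_apply]
    calc g = u * (u⁻¹ * g * u) * u⁻¹ := by group
      _ = _ := by rw [e]; group

end Cfsg.Agent.A9T
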