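import Cfsg.Agent.A9T.A
import Cfsg.Agent.A9R.SP

/-! The normalised splitting of `N(⟨z⟩)`. -/

set_option autoImplicit false

namespace Cfsg.Agent.A9T

open Equiv Subgroup

theorem a513_J : (∀ x ∈ J1, ∃ i : Fin 3 × Fin 3 × Fin 3, x = z1 ^ i.1.1 * y1 ^ i.2.1.1 * u1 ^ i.2.2.1) ∧ Nat.card J1 = 27 ∧
    (∀ x ∈ J1, x ^ 3 = 1) ∧ ∀ x ∈ J1, ∀ y ∈ J1, x * y = y * x := by
  have k : ∀ w : Fin 3 × Fin 3 × Fin 3 → H1, (∀ i, w i = z1 ^ i.1.1 * y1 ^ i.2.1.1 * u1 ^ i.2.2.1) →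
      (∀ i j, w i * w j = w (i + j)) ∧ (∀ i, w i = 1 → i = 0) ∧ z1 = w (1, 0, 0) ∧ y1 = w (0, 1, 0) ∧ u1 = w (0, 0, 1) ∧
      1 = w 0 := fun w hw => by
    have c1 : Commute z1 y1 := Subtype.ext (by decide +kernel)
    have c2 : Commute z1 u1 := Subtype.ext (by decide +kernel)
    have c3 : Commute y1 u1 := Subtype.ext (by decide +kernel)
    have p : ∀ x : H1, x ^ 3 = 1 → ∀ a b : Fin 3, x ^ (a + b).1 = x ^ a.1 * x ^ b.1 := fun x hx a b => by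
      rw [Fin.val_add, ← pow_eq_pow_mod _ hx, pow_add]
    refine ⟨fun i j => ?_, fun i hi => ?_, by simp [hw], by simp [hw], by simp [hw], by simp [hw]⟩
    · simp only [hw, Prod.fst_add, Prod.snd_add]
      rw [p z1 (Subtype.ext (by decide +kernel)), p y1 (Subtype.ext (by decide +kernel)), p u1 (Subtype.ext (by decide +kernel))]
      simp only [mul_assoc]
      rw [← mul_assoc (u1 ^ _) (z1 ^ _), ← (c2.pow_pow _ _).eq, mul_assoc (z1 ^ _), ← mul_assoc (y1 ^ _) (z1 ^ _),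
        ← (c1.pow_pow _ _).eq, mul_assoc (z1 ^ _), ← mul_assoc (u1 ^ _) (y1 ^ _), ← (c3.pow_pow _ _).eq, mul_assoc (y1 ^ _)]
    · have : ∀ i : Fin 3 × Fin 3 × Fin 3, z1.1 ^ i.1.1 * y1.1 ^ i.2.1.1 * u1.1 ^ i.2.2.1 = 1 → i = 0 := by decide +kernel
      exact this i (congrArg Subtype.val ((hw i).symm.trans hi))
  obtain ⟨w, hw⟩ : ∃ w : Fin 3 × Fin 3 × Fin 3 → H1, ∀ i, w i = z1 ^ i.1.1 * y1 ^ i.2.1.1 * u1 ^ i.2.2.1 := ⟨_, fun _ => rfl⟩
  obtain ⟨k1, k2, k3, k4, k5, k6⟩ := k w hw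
  let φ : Multiplicative (Fin 3 × Fin 3 × Fin 3) →* H1 := MonoidHom.mk' (fun i => w i.toAdd) fun i j => (k1 _ _).symm
  have e : J1 = φ.range := le_antisymm ((closure_le _).2 (by
    rintro _ (rfl | rfl | rfl)
    exacts [⟨_, k3.symm⟩, ⟨_, k4.symm⟩, ⟨_, k5.symm⟩])) (by
      rintro _ ⟨i, rfl⟩
      show w _ ∈ J1
      rw [hw]
      exact mul_mem (mul_mem (pow_mem (subset_closure (by simp)) _) (pow_mem (subset_closure (by simp)) _))
        (pow_mem (subset_closure (by simp)) _))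
  rw [e]
  refine ⟨by rintro _ ⟨i, rfl⟩; exact ⟨_, hw _⟩, ?_, ?_, ?_⟩
  · rw [← Nat.card_congr (MonoidHom.ofInjective ((injective_iff_map_eq_one φ).2 fun i hi => k2 _ hi)).toEquiv]
    simp
  · rintro _ ⟨i, rfl⟩
    rw [← map_pow, show i ^ 3 = 1 by revert i; decide, map_one]
  · rintro _ ⟨i, rfl⟩ _ ⟨j, rfl⟩
    rw [← map_mul, mul_comm, map_mul]

theorem G0.sig13 {G : Type*} [Group G] [Finite G] {η : H1 →* G} (h : G0 η)
    (s6n : ∀ {c1 c2 c4 c5 : Perm (Fin 6)}, c1 * c1 = 1 → c2 * c2 = 1 → c4 * c4 = 1 → c5 * c5 = 1 → (c1 * c2) ^ 3 = 1 →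
      (c4 * c5) ^ 3 = 1 → c1 ≠ c2 → c4 ≠ c5 → c1 * c4 = c4 * c1 → c1 * c5 = c5 * c1 → c2 * c4 = c4 * c2 →
      c2 * c5 = c5 * c2 → ∃ α : Perm (Fin 6) ≃* Perm (Fin 6), α (swap 0 1) = c1 ∧ α (swap 1 2) = c2 ∧ α (swap 3 4) = c4 ∧
        α (swap 4 5) = c5 ∧ ∀ π, Perm.sign (α π) = Perm.sign π)
    (f : normalizer (zpowers (η z1) : Set G) →* Perm (Fin 6)) (hs : Function.Surjective f)
    (hk : ∀ g, f g = 1 ↔ (g : G) ∈ zpowers (η z1)) :
    ∃ σ : Perm (Fin 6) →* G, Function.Injective σ ∧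
      (∀ π, σ π * η z1 * (σ π)⁻¹ = if Perm.sign π = 1 then η z1 else (η z1)⁻¹) ∧
      (∀ g, g * η z1 * g⁻¹ ∈ zpowers (η z1) → ∃ π, ∃ u ∈ zpowers (η z1), g = u * σ π) ∧
      σ (swap 0 1) = η k1 ∧ σ (swap 1 2) = η k2 ∧ σ (swap 3 4) = η k4 ∧ σ (swap 4 5) = η k5 := by
  obtain ⟨-, j2, j3, j4⟩ := a513_J
  have z3 : η z1 ^ 3 = 1 := by rw [← map_pow, j3 _ (subset_closure (by simp)), map_one]
  have ne : ∀ {x y : H1}, x.1 ≠ y.1 → η x ≠ η y := fun n e => n (congrArg Subtype.val (h.inj e))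
  have P : ∀ {x y : H1}, x.1 = y.1 → η x = η y := fun e => congrArg η (Subtype.ext e)
  have ki : η k1 * η z1 * (η k1)⁻¹ = (η z1)⁻¹ := by
    rw [← map_inv, ← map_inv, ← map_mul, ← map_mul]; exact P (by decide +kernel)
  have zi : η z1 ≠ (η z1)⁻¹ := by rw [← map_inv]; exact ne (by decide +kernel)
  obtain ⟨σ, s1, s2, s3⟩ := A9R.sp (J := J1.map η) ⟨⟨by
      rintro ⟨_, x, hx, rfl⟩ ⟨_, y, hy, rfl⟩
      exact Subtype.ext (show η x * η y = η y * η x by rw [← map_mul, j4 x hx y hy, map_mul])⟩⟩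
    (by rintro _ ⟨x, hx, rfl⟩; rw [← map_pow, j3 x hx, map_one]) (by rw [card_map_of_injective h.inj, j2])
    ⟨z1, subset_closure (by simp), rfl⟩ (map_one η ▸ ne (by decide +kernel)) f hs hk ⟨_, ki⟩
  have cz : ∀ x : H1, x.1 * z1.1 = z1.1 * x.1 → η x * η z1 = η z1 * η x := fun x e => by
    rw [← map_mul, ← map_mul]; exact P e
  generalize η z1 = a at *
  have s3' : ∀ g, g * a * g⁻¹ ∈ zpowers a → ∃ π, ∃ u ∈ zpowers a, g = u * σ π := fun g hg =>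
    s3 g (mem_normalizer_fintype (S := (zpowers a : Set G)) (by
      rintro _ ⟨k, rfl⟩
      show g * a ^ k * g⁻¹ ∈ zpowers a
      rw [← conj_zpow]
      exact zpow_mem hg k))
  have fi : ∀ π, σ π ∈ zpowers a → π = 1 := fun π hπ => by
    obtain ⟨h1, h2⟩ := s1 π
    exact h2.symm.trans ((hk _).2 hπ)
  have σi : Function.Injective σ := (injective_iff_map_eq_one σ).2 fun π e => fi π (e ▸ one_mem _)
  have uc : ∀ u ∈ zpowers a, u * a = a * u := by rintro _ ⟨k, rfl⟩; exact (Commute.zpow_self a k).eq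
  have u3 : ∀ u ∈ zpowers a, u * (u * u) = 1 := by
    rintro _ ⟨k, rfl⟩
    show a ^ k * (a ^ k * a ^ k) = 1
    rw [← sq, ← pow_succ', ← zpow_natCast, ← zpow_mul, mul_comm, zpow_mul, zpow_natCast, z3, one_zpow]
  have ev : ∀ u ∈ zpowers a, ∀ π, σ π * a = a * σ π → σ π * u = u * σ π := by
    rintro _ ⟨k, rfl⟩ π e
    exact (Commute.zpow_right e k).eq
  have iv : ∀ g, g * g = 1 → g * a = a * g → ∃ π, σ π = g ∧ σ π * a = a * σ π := fun g gg ga => by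
    obtain ⟨π, u, hu, rfl⟩ := s3' g (by rw [ga, mul_inv_cancel_right]; exact mem_zpowers a)
    have e : σ π * a = a * σ π := mul_left_cancel (a := u) (by rw [← mul_assoc, ga, ← mul_assoc, ← uc u hu, mul_assoc])
    rw [mul_assoc, ← mul_assoc (σ π), ev u hu π e, mul_assoc, ← map_mul, ← mul_assoc] at gg
    have := fi (π * π) (eq_inv_of_mul_eq_one_right gg ▸ inv_mem (mul_mem hu hu))
    rw [this, map_one, mul_one] at gg
    have u1 : u = 1 := by have := u3 u hu; rwa [gg, mul_one] at this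
    exact ⟨π, by rw [u1, one_mul], e⟩
  obtain ⟨c1, u, hu, e1⟩ := s3' (η k1) (ki ▸ inv_mem (mem_zpowers a))
  have od : σ c1 * a * (σ c1)⁻¹ = a⁻¹ := by
    have := ki
    rw [e1, mul_inv_rev, mul_assoc u, mul_assoc u, ← mul_assoc (σ c1 * a)] at this
    rw [s2] at this ⊢
    split_ifs at this ⊢ with hh
    · rw [← mul_assoc, uc u hu, mul_inv_cancel_right] at this
      exact this
    · rfl
  have ou : σ c1 * u * (σ c1)⁻¹ = u⁻¹ := by
    obtain ⟨k, rfl⟩ := hu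
    show σ c1 * a ^ k * (σ c1)⁻¹ = (a ^ k)⁻¹
    rw [← conj_zpow, od, inv_zpow]
  obtain ⟨τ, hτ⟩ : ∃ τ : Perm (Fin 6) →* G, ∀ π, τ π = u⁻¹ * σ π * u := ⟨(MulAut.conj u⁻¹).toMonoidHom.comp σ, fun _ => by simp⟩
  have τi : Function.Injective τ := fun x y e => σi (by simpa [hτ] using e)
  have t1 : τ c1 = η k1 := by
    rw [hτ, e1, mul_assoc, mul_inv_eq_iff_eq_mul.1 ou, ← mul_assoc, ← mul_inv_rev, inv_eq_of_mul_eq_one_left (u3 u hu)]
  have iv' : ∀ x : H1, x * x = 1 → η x * a = a * η x → η x ∈ τ.range := fun x xx xa => by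
    obtain ⟨π, e, e'⟩ := iv (η x) (by rw [← map_mul, xx, map_one]) xa
    exact ⟨π, by rw [hτ, mul_assoc, ev u hu π e', inv_mul_cancel_left, e]⟩
  have m1 : η k1 ∈ τ.range := ⟨c1, t1⟩
  have m4 : η k4 ∈ τ.range := (mul_mem_cancel_left m1).1
    (map_mul η k1 k4 ▸ iv' (k1 * k4) (Subtype.ext (by decide +kernel)) (cz _ (by decide +kernel)))
  obtain ⟨c5, t5⟩ : η k5 ∈ τ.range := (mul_mem_cancel_left m1).1
    (map_mul η k1 k5 ▸ iv' (k1 * k5) (Subtype.ext (by decide +kernel)) (cz _ (by decide +kernel)))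
  obtain ⟨c2, t2⟩ : η k2 ∈ τ.range := (mul_mem_cancel_left m4).1
    (map_mul η k4 k2 ▸ iv' (k4 * k2) (Subtype.ext (by decide +kernel)) (cz _ (by decide +kernel)))
  obtain ⟨c4, t4⟩ := m4
  have Q2 : ∀ {c : Perm (Fin 6)} {x : H1}, τ c = η x → (x * x).1 = 1 → c * c = 1 := fun e e' =>
    τi (by rw [map_mul, e, ← map_mul, map_one, ← map_one η]; exact P e')
  have Q3 : ∀ {c d : Perm (Fin 6)} {x y : H1}, τ c = η x → τ d = η y → ((x * y) ^ 3).1 = 1 → (c * d) ^ 3 = 1 :=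
    fun e1 e2 e' => τi (by rw [map_pow, map_mul, e1, e2, ← map_mul, ← map_pow, map_one, ← map_one η]; exact P e')
  have Qc : ∀ {c d : Perm (Fin 6)} {x y : H1}, τ c = η x → τ d = η y → (x * y).1 = (y * x).1 → c * d = d * c :=
    fun e1 e2 e' => τi (by rw [map_mul, map_mul, e1, e2, ← map_mul, ← map_mul]; exact P e')
  have Qn : ∀ {c d : Perm (Fin 6)} {x y : H1}, τ c = η x → τ d = η y → x.1 ≠ y.1 → c ≠ d :=
    fun e1 e2 n e => ne n (by rw [← e1, ← e2, e])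
  obtain ⟨α, a1, a2, a4, a5, as⟩ := s6n (Q2 t1 (by decide +kernel)) (Q2 t2 (by decide +kernel)) (Q2 t4 (by decide +kernel))
    (Q2 t5 (by decide +kernel)) (Q3 t1 t2 (by decide +kernel)) (Q3 t4 t5 (by decide +kernel)) (Qn t1 t2 (by decide +kernel))
    (Qn t4 t5 (by decide +kernel)) (Qc t1 t4 (by decide +kernel)) (Qc t1 t5 (by decide +kernel))
    (Qc t2 t4 (by decide +kernel)) (Qc t2 t5 (by decide +kernel))
  have τ2 : ∀ π, τ π * a * (τ π)⁻¹ = if Perm.sign π = 1 then a else a⁻¹ := fun π => by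
    have e : τ π * a * (τ π)⁻¹ = u⁻¹ * (σ π * (u * a * u⁻¹) * (σ π)⁻¹) * u := by rw [hτ]; group
    rw [e, uc u hu, mul_inv_cancel_right, s2]
    split_ifs
    · rw [mul_assoc, ← uc u hu, inv_mul_cancel_left]
    · rw [mul_assoc, ← (Commute.inv_right (uc u hu)).eq, inv_mul_cancel_left]
  have nτ : ∀ π, ∀ v ∈ zpowers a, τ π * v * (τ π)⁻¹ ∈ zpowers a := by
    rintro π _ ⟨k, rfl⟩
    show τ π * a ^ k * (τ π)⁻¹ ∈ zpowers a
    rw [← conj_zpow, τ2]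
    split_ifs
    exacts [zpow_mem (mem_zpowers a) k, zpow_mem (inv_mem (mem_zpowers a)) k]
  refine ⟨τ.comp α.toMonoidHom, τi.comp α.injective, fun π => (τ2 (α π)).trans (by rw [as]), fun g hg => ?_,
    (congrArg τ a1).trans t1, (congrArg τ a2).trans t2, (congrArg τ a4).trans t4, (congrArg τ a5).trans t5⟩
  obtain ⟨π, v, hv, rfl⟩ := s3' g hg
  refine ⟨α.symm π, v * u * (τ π * u⁻¹ * (τ π)⁻¹), mul_mem (mul_mem hv hu) (nτ π _ (inv_mem hu)), ?_⟩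
  show _ = _ * τ (α (α.symm π))
  rw [α.apply_symm_apply, mul_assoc, inv_mul_cancel_right, hτ]
  group

end Cfsg.Agent.A9T
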