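import Cfsg.Agent.A9T.A2
import Cfsg.Agent.A9R.SP

/-! Normalising the complement `Sym(6)` in `N(⟨z⟩)`. (helper12) -/

set_option autoImplicit false
set_option maxRecDepth 100000

namespace Cfsg.Agent.A9T

open Equiv Subgroup Function Cfsg.Agent.A9R

variable {G : Type*} [Group G] [Finite G] {η : H1 →* G}

/-- the normalisation statement in `Sym(6)` -/
def S6Pz : Prop := ∀ {c1 c2 c4 c5 : Perm (Fin 6)}, c1*c1=1 → c2*c2=1 → c4*c4=1 → c5*c5=1 → (c1*c2)^3=1 → (c4*c5)^3=1 →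
  c1 ≠ c2 → c4 ≠ c5 → c1*c4=c4*c1 → c1*c5=c5*c1 → c2*c4=c4*c2 → c2*c5=c5*c2 → Perm.sign c1 = -1 → Perm.sign c4 = -1 →
  ∃ α : Perm (Fin 6) ≃* Perm (Fin 6), α (swap 0 1) = c1 ∧ α (swap 1 2) = c2 ∧ α (swap 3 4) = c4 ∧ α (swap 4 5) = c5 ∧
    ∀ π, Perm.sign (α π) = Perm.sign π

theorem G0.sigz (s6 : S6Pz) (h : G0 η) (f : normalizer (zpowers (η z1) : Set G) →* Perm (Fin 6)) (hs : Surjective f)
    (hk : ∀ g, f g = 1 ↔ (g : G) ∈ zpowers (η z1)) :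
    ∃ σ : Perm (Fin 6) →* G, Injective σ ∧
      (∀ π, σ π * η z1 * (σ π)⁻¹ = if Perm.sign π = 1 then η z1 else (η z1)⁻¹) ∧
      (∀ g, g * η z1 * g⁻¹ ∈ zpowers (η z1) → ∃ π, ∃ u ∈ zpowers (η z1), g = u * σ π) ∧
      σ (swap 0 1) = η k1 ∧ σ (swap 1 2) = η k2 ∧ σ (swap 3 4) = η k4 ∧ σ (swap 4 5) = η k5 := by
  have z3 : η z1 ^ 3 = 1 := by rw [← map_pow, show z1 ^ 3 = 1 by decide +kernel, map_one]
  have zz : η z1 ≠ 1 := fun e => absurd (h.inj (e.trans (map_one η).symm)) (by decide +kernel)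
  have iv : ∀ k : H1, k * z1 * k⁻¹ = z1⁻¹ → η k * η z1 * (η k)⁻¹ = (η z1)⁻¹ := fun k e => by
    rw [← map_inv, ← map_inv, ← map_mul, ← map_mul, e]
  obtain ⟨σ0, s1, s2, s3⟩ := sp (J := J1.map η) h.toF0.a2_commJ (by
      rintro _ ⟨x, hx, rfl⟩
      obtain ⟨p, rfl⟩ := a2_mem hx
      rw [← map_pow, (by decide +kernel : ∀ p, a2_W p ^ 3 = 1) p, map_one])
    h.toF0.a2_cardJ ⟨z1, subset_closure (by simp), rfl⟩ zz f hs hk ⟨_, iv k1 (by decide +kernel)⟩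
  generalize η z1 = z at *
  have ni : z⁻¹ ≠ z := fun e => zz (by
    calc z = z ^ 3 * z⁻¹ * z⁻¹ := by group
      _ = z⁻¹ * z := by rw [z3, one_mul]; exact congrArg _ e
      _ = 1 := by group)
  have nm : ∀ g, g * z * g⁻¹ ∈ zpowers z → g ∈ normalizer (zpowers z : Set G) := fun g hg =>
    mem_normalizer_fintype fun n ⟨k, hk⟩ => by
      rw [← hk]; simp only [← conj_zpow]; exact zpow_mem hg k
  have kz : ∀ π, σ0 π ∈ zpowers z → π = 1 := fun π e => by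
    obtain ⟨m, e1⟩ := s1 π
    rw [← e1]; exact (hk _).2 e
  have dc : ∀ k, k * z * k⁻¹ = z⁻¹ → ∃ π, Perm.sign π = -1 ∧ ∃ u ∈ zpowers z, k = u * σ0 π := fun k e => by
    obtain ⟨π, u, ⟨n, rfl⟩, rfl⟩ := s3 k (nm k (e ▸ inv_mem (mem_zpowers z)))
    refine ⟨π, (Int.units_eq_one_or _).resolve_left fun p => ni ?_, _, ⟨n, rfl⟩, rfl⟩
    have := s2 π
    rw [if_pos p] at this
    rw [← e]
    calc z ^ n * σ0 π * z * (z ^ n * σ0 π)⁻¹ = z ^ n * (σ0 π * z * (σ0 π)⁻¹) * (z ^ n)⁻¹ := by group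
      _ = z := by rw [this]; group
  obtain ⟨c1, p1, _, ⟨n1, rfl⟩, e1⟩ := dc _ (iv k1 (by decide +kernel))
  obtain ⟨c2, p2, _, ⟨n2, rfl⟩, e2⟩ := dc _ (iv k2 (by decide +kernel))
  obtain ⟨c4, p4, _, ⟨n4, rfl⟩, e4⟩ := dc _ (iv k4 (by decide +kernel))
  obtain ⟨c5, p5, _, ⟨n5, rfl⟩, e5⟩ := dc _ (iv k5 (by decide +kernel))
  simp only at e1 e2 e4 e5
  have od : ∀ c, Perm.sign c = -1 → ∀ n : ℤ, σ0 c * z ^ n = z ^ (-n) * σ0 c := fun c p n => by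
    have := s2 c
    rw [if_neg (by rw [p]; decide)] at this
    rw [zpow_neg, ← inv_zpow, ← this, conj_zpow]; group
  have evc : ∀ c, Perm.sign c = 1 → Commute (σ0 c) z := fun c p => by
    have := s2 c
    rwa [if_pos p, mul_inv_eq_iff_eq_mul] at this
  have eqn : ∀ c c' (n n' : ℤ), Perm.sign c = -1 → Perm.sign c' = -1 →
      z ^ n * σ0 c * (z ^ n' * σ0 c') * (z ^ n * σ0 c * (z ^ n' * σ0 c')) = 1 → z ^ n = z ^ n' := fun c c' n n' p p' e => by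
    have e1 : z ^ n * σ0 c * (z ^ n' * σ0 c') = z ^ (n - n') * σ0 (c * c') := by
      rw [mul_assoc, ← mul_assoc (σ0 c), od c p, map_mul]; group
    have cm := ((evc (c * c') (by rw [map_mul, p, p']; decide)).zpow_right (n - n')).eq
    rw [e1, mul_assoc, ← mul_assoc (σ0 _), cm, mul_assoc, ← map_mul, ← mul_assoc] at e
    have e2 := kz _ (eq_inv_of_mul_eq_one_right e ▸ inv_mem (mul_mem (zpow_mem_zpowers z _) (zpow_mem_zpowers z _)))
    rw [e2, map_one, mul_one] at e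
    have e3 : (z ^ (n - n')) ^ 3 = 1 := by rw [← zpow_natCast, ← zpow_mul, mul_comm, zpow_mul, zpow_natCast, z3, one_zpow]
    rw [pow_succ, pow_two, e, one_mul, zpow_sub] at e3
    exact mul_inv_eq_one.1 e3
  have sq : ∀ k k' : H1, k * k' * (k * k') = 1 → η k * η k' * (η k * η k') = 1 := fun k k' e => by
    rw [← map_mul, ← map_mul, e, map_one]
  have q4 : z ^ n1 = z ^ n4 := eqn _ _ _ _ p1 p4 (by rw [← e1, ← e4]; exact sq _ _ (by decide +kernel))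
  have q5 : z ^ n1 = z ^ n5 := eqn _ _ _ _ p1 p5 (by rw [← e1, ← e5]; exact sq _ _ (by decide +kernel))
  have q2 : z ^ n4 = z ^ n2 := eqn _ _ _ _ p4 p2 (by rw [← e4, ← e2]; exact sq _ _ (by decide +kernel))
  rw [← q2] at e2
  rw [← q4] at e2 e4
  rw [← q5] at e5
  let σ1 : Perm (Fin 6) →* G := (MulAut.conj (z ^ (-n1))).toMonoidHom.comp σ0
  have hσ : ∀ π, σ1 π = z ^ (-n1) * σ0 π * (z ^ (-n1))⁻¹ := fun _ => rfl
  have ok : ∀ c, Perm.sign c = -1 → σ1 c = z ^ n1 * σ0 c := fun c p => by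
    have e3 : (z ^ 3) ^ (-n1) = 1 := by rw [z3, one_zpow]
    rw [hσ, ← zpow_neg, neg_neg, mul_assoc, od c p, ← one_mul (z ^ n1 * _), ← e3]; group
  rw [← ok _ p1] at e1
  rw [← ok _ p2] at e2
  rw [← ok _ p4] at e4
  rw [← ok _ p5] at e5
  have i1 : Injective σ1 := (MulAut.conj _).injective.comp ((injective_iff_map_eq_one σ0).2 fun π e => kz π (e ▸ one_mem _))
  have tr : ∀ {k k' : H1} {c c'}, η k = σ1 c → η k' = σ1 c' → ∀ n : ℕ, (k * k') ^ n = 1 → (c * c') ^ n = 1 :=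
    fun a b n e => i1 (by rw [map_pow, map_mul, ← a, ← b, ← map_mul, ← map_pow, e, map_one, map_one])
  have cm : ∀ {k k' : H1} {c c'}, η k = σ1 c → η k' = σ1 c' → k * k' = k' * k → c * c' = c' * c :=
    fun a b e => i1 (by rw [map_mul, map_mul, ← a, ← b, ← map_mul, ← map_mul, e])
  have ne : ∀ {k k' : H1} {c c'}, η k = σ1 c → η k' = σ1 c' → k ≠ k' → c ≠ c' :=
    fun a b e e' => e (h.inj (by rw [a, b, e']))
  obtain ⟨α, a1, a2, a4, a5, sg⟩ := s6 ((pow_one _).symm.trans (tr e1 e1 1 (by decide +kernel)))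
    ((pow_one _).symm.trans (tr e2 e2 1 (by decide +kernel))) ((pow_one _).symm.trans (tr e4 e4 1 (by decide +kernel)))
    ((pow_one _).symm.trans (tr e5 e5 1 (by decide +kernel))) (tr e1 e2 3 (by decide +kernel)) (tr e4 e5 3 (by decide +kernel))
    (ne e1 e2 (by decide +kernel)) (ne e4 e5 (by decide +kernel)) (cm e1 e4 (by decide +kernel)) (cm e1 e5 (by decide +kernel))
    (cm e2 e4 (by decide +kernel)) (cm e2 e5 (by decide +kernel)) p1 p4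
  refine ⟨σ1.comp α.toMonoidHom, i1.comp α.injective, fun π => ?_, fun g hg => ?_, ?_, ?_, ?_, ?_⟩
  · show σ1 (α π) * z * (σ1 (α π))⁻¹ = _
    rw [← sg π, hσ]
    calc _ = z ^ (-n1) * (σ0 (α π) * z * (σ0 (α π))⁻¹) * (z ^ (-n1))⁻¹ := by group
      _ = _ := by rw [s2]; split_ifs <;> group
  · obtain ⟨π, u, hu, rfl⟩ := s3 g (nm g hg)
    refine ⟨α.symm π, u * σ0 π * (σ1 π)⁻¹, ?_, by simp⟩
    rcases Int.units_eq_one_or (Perm.sign π) with p | p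
    · rw [hσ, ← ((evc π p).zpow_right _).eq]; simpa using hu
    · rw [ok π p]
      simpa [mul_assoc] using mul_mem hu (inv_mem (zpow_mem_zpowers z n1))
  exacts [(congrArg σ1 a1).trans e1.symm, (congrArg σ1 a2).trans e2.symm, (congrArg σ1 a4).trans e4.symm,
    (congrArg σ1 a5).trans e5.symm]

end Cfsg.Agent.A9T
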