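import Cfsg.Agent.A9T.A
import Cfsg.Agent.A9M.A

/-! From the frame `G0` to the frame `FA` (helper27). -/

set_option autoImplicit false

namespace Cfsg.Agent.A9T

open Equiv Subgroup

theorem a6_d1 : ∀ a b c : Fin 9, a ≠ b → b ≠ c → a ≠ c → a.val / 3 = b.val / 3 → b.val / 3 = c.val / 3 →
    (a.val / 3 = 0 ∧ (swap a b * swap b c = z1.1 ∨ swap a b * swap b c = z1⁻¹.1)) ∨
    (a.val / 3 ≠ 0 ∧ (swap a b * swap b c = y1.1 ∨ swap a b * swap b c = y1⁻¹.1 ∨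
      swap a b * swap b c = u1.1 ∨ swap a b * swap b c = u1⁻¹.1)) := by decide +kernel

theorem a6_T (l : H1) : ((l.1 0).val / 3 = 0 ∧ l * z1 * l⁻¹ ∈ zpowers z1) ∨
    ((l.1 0).val / 3 ≠ 0 ∧ (l * z1 * l⁻¹ ∈ zpowers y1 ∨ l * z1 * l⁻¹ ∈ zpowers u1)) := by
  have e : (l * z1 * l⁻¹).1 = swap (l.1 0) (l.1 1) * swap (l.1 1) (l.1 2) := by
    change l.1 * (swap 0 1 * swap 1 2) * l.1⁻¹ = _
    rw [swap_apply_apply, swap_apply_apply]; group
  have h := a6_d1 (l.1 0) (l.1 1) (l.1 2) (l.1.injective.ne (by decide)) (l.1.injective.ne (by decide))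
    (l.1.injective.ne (by decide)) ((l.2.2 0 1).1 (by decide)) ((l.2.2 1 2).1 (by decide))
  rw [← e] at h
  rcases h with ⟨a, h | h⟩ | ⟨a, h | h | h | h⟩ <;> rw [Subtype.ext h]
  · exact Or.inl ⟨a, mem_zpowers _⟩
  · exact Or.inl ⟨a, inv_mem (mem_zpowers _)⟩
  · exact Or.inr ⟨a, Or.inl (mem_zpowers _)⟩
  · exact Or.inr ⟨a, Or.inl (inv_mem (mem_zpowers _))⟩
  · exact Or.inr ⟨a, Or.inr (mem_zpowers _)⟩
  · exact Or.inr ⟨a, Or.inr (inv_mem (mem_zpowers _))⟩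

theorem a6_d2 : ∀ k : Fin 3, ∀ x : Fin 9, (y1 * u1) ^ (k : ℕ) ≠ 1 → ((y1 * u1) ^ (k : ℕ)).1 x = x →
    x.val / 3 = 0 := by decide +kernel

theorem a6_nb {l : H1} (h : l * (y1 * u1) * l⁻¹ ∈ zpowers (y1 * u1)) : l * z1 * l⁻¹ ∈ zpowers z1 := by
  obtain ⟨k, hk⟩ := mem_powers_iff_mem_zpowers.2 h
  have hk' : (y1 * u1) ^ (k % 3) = l * (y1 * u1) * l⁻¹ := by
    rw [← pow_eq_pow_mod k (by decide +kernel)]; exact hk
  have h0 := a6_d2 ⟨k % 3, Nat.mod_lt _ (by norm_num)⟩ (l.1 0) (by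
      change (y1 * u1) ^ (k % 3) ≠ 1
      rw [hk']
      intro e
      rw [conj_eq_one_iff] at e
      exact absurd e (by decide +kernel)) (by
      change ((y1 * u1) ^ (k % 3)).1 (l.1 0) = l.1 0
      rw [hk']
      change l.1 ((y1 * u1).1 (l.1⁻¹ (l.1 0))) = l.1 0
      rw [show l.1⁻¹ (l.1 0) = 0 from l.1.symm_apply_apply 0, show (y1 * u1).1 0 = 0 by decide +kernel])
  rcases a6_T l with ⟨-, a⟩ | ⟨a, -⟩
  · exact a
  · exact absurd h0 a

/-- the table of `z y u` -/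
def a6c : Fin 9 → Fin 9 := ![1, 2, 0, 4, 5, 3, 7, 8, 6]

theorem a6_d3 : ∀ a b d : Fin 9, a.val / 3 ≠ b.val / 3 → a.val / 3 ≠ d.val / 3 → b.val / 3 ≠ d.val / 3 →
    (∀ x, (![a, a6c a, a6c (a6c a), b, a6c b, a6c (a6c b), d, a6c d, a6c (a6c d)] : Fin 9 → Fin 9)^[9] x = x) ∨
    ∃ i j : Fin 9, (∀ x, (![a, a6c a, a6c (a6c a), b, a6c b, a6c (a6c b), d, a6c d, a6c (a6c d)] :
      Fin 9 → Fin 9)^[9] x = (swap i j * swap (a6c i) (a6c j) * swap (a6c (a6c i)) (a6c (a6c j))) x) ∧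
      i ≠ j ∧ a6c i ≠ a6c j ∧ a6c (a6c i) ≠ a6c (a6c j) := by decide +kernel

theorem a6_9 {l : H1} (h : l * (z1 * y1 * u1) = z1 * y1 * u1 * l) : l ^ 9 = 1 := by
  have c : ∀ x, (z1 * y1 * u1).1 x = a6c x := by decide +kernel
  have cm : ∀ x, l.1 (a6c x) = a6c (l.1 x) := fun x => by
    rw [← c, ← c]; exact congrArg (fun g : H1 => g.1 x) h
  have e : (l.1 : Fin 9 → Fin 9) = ![l.1 0, a6c (l.1 0), a6c (a6c (l.1 0)), l.1 3, a6c (l.1 3),
      a6c (a6c (l.1 3)), l.1 6, a6c (l.1 6), a6c (a6c (l.1 6))] := by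
    funext x
    simp only [← cm]
    fin_cases x <;> rfl
  have h3 := a6_d3 (l.1 0) (l.1 3) (l.1 6) (fun e => absurd ((l.2.2 0 3).2 e) (by decide))
    (fun e => absurd ((l.2.2 0 6).2 e) (by decide)) (fun e => absurd ((l.2.2 3 6).2 e) (by decide))
  rw [← e] at h3
  rcases h3 with h3 | ⟨i, j, h3, n1, n2, n3⟩
  · exact Subtype.ext (Equiv.ext h3)
  · have e2 : l.1 ^ 9 = _ := Equiv.ext h3
    have := congrArg Perm.sign e2
    rw [map_pow, l.2.1, map_mul, map_mul, Perm.sign_swap n1, Perm.sign_swap n2, Perm.sign_swap n3] at this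
    exact absurd this (by decide)

variable {G : Type*} [Group G] [Finite G]

theorem G0.fa {η : H1 →* G} (h : G0 η) (σ : Perm (Fin 6) →* G) (inj : Function.Injective σ)
    (act : ∀ π, σ π * η z1 * (σ π)⁻¹ = if Perm.sign π = 1 then η z1 else (η z1)⁻¹)
    (nz : ∀ g, g * η z1 * g⁻¹ ∈ zpowers (η z1) → ∃ π, ∃ u ∈ zpowers (η z1), g = u * σ π)
    (e1 : σ (swap 0 1) = η k1) (e2 : σ (swap 1 2) = η k2) (e4 : σ (swap 3 4) = η k4)
    (e5 : σ (swap 4 5) = η k5) : A9M.FA (η z1) (η s1) σ := by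
  have f2 : σ A9M.c2 = η y1 := by
    rw [show A9M.c2 = swap 0 1 * swap 1 2 by decide +kernel, map_mul, e1, e2, ← map_mul]
    exact congrArg η (by decide +kernel)
  have f3 : σ A9M.c3 = η u1 := by
    rw [show A9M.c3 = swap 3 4 * swap 4 5 by decide +kernel, map_mul, e4, e5, ← map_mul]
    exact congrArg η (by decide +kernel)
  have f23 : σ (A9M.c2 * A9M.c3) = η (y1 * u1) := by rw [map_mul, f2, f3, map_mul]
  have f123 : η z1 * σ (A9M.c2 * A9M.c3) = η (z1 * y1 * u1) := by rw [f23, ← map_mul, mul_assoc]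
  have up : ∀ l x w : H1, l * x * l⁻¹ ∈ zpowers w → η l * η x * (η l)⁻¹ ∈ zpowers (η w) := by
    intro l x w hm
    obtain ⟨k, hk⟩ := mem_zpowers_iff.1 hm
    exact mem_zpowers_iff.2 ⟨k, by rw [← map_zpow, hk, map_mul, map_mul, map_inv]⟩
  have mz : z1 ∈ J1 := subset_closure (Or.inl rfl)
  have my : y1 ∈ J1 := subset_closure (Or.inr (Or.inl rfl))
  have mu : u1 ∈ J1 := subset_closure (Or.inr (Or.inr rfl))
  have rng : ∀ x ∈ J1, (∀ g : G, g * η x = η x * g → g ∈ η.range) → ∀ g : G,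
      g * η x * g⁻¹ ∈ zpowers (η x) → g ∈ η.range := by
    intro x hx hc g hg
    obtain ⟨l, hl⟩ := h.fus x hx g (zpowers_le.2 (⟨x, hx, rfl⟩ : η x ∈ J1.map η) hg)
    rw [map_mul, map_mul, map_inv] at hl
    have := η.range.mul_mem ⟨l, rfl⟩ (hc ((η l)⁻¹ * g) (by
      calc (η l)⁻¹ * g * η x = (η l)⁻¹ * (g * η x * g⁻¹) * g := by group
        _ = _ := by rw [hl]; group))
    rwa [mul_inv_cancel_left] at this
  have nb : ∀ g : G, g * σ (A9M.c2 * A9M.c3) * g⁻¹ ∈ zpowers (σ (A9M.c2 * A9M.c3)) →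
      g * η z1 * g⁻¹ ∈ zpowers (η z1) := by
    intro g hg
    rw [f23] at hg
    obtain ⟨l, rfl⟩ := rng _ (J1.mul_mem my mu) h.cb g hg
    obtain ⟨k, hk⟩ := mem_zpowers_iff.1 hg
    rw [← map_zpow, ← map_inv, ← map_mul, ← map_mul] at hk
    exact up _ _ _ (a6_nb (mem_zpowers_iff.2 ⟨k, h.inj hk⟩))
  refine ⟨?_, ?_, inj, act, nz, ?_, ?_, ?_, ?_, ?_, ?_, nb, ?_⟩
  · rw [← map_pow, show z1 ^ 3 = 1 by decide +kernel, map_one]
  · intro e
    exact absurd (h.inj (e.trans (map_one η).symm)) (by decide +kernel)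
  · rw [← map_mul, show s1 * s1 = 1 by decide +kernel, map_one]
  · rw [f3, ← map_inv, ← map_mul, ← map_mul]; exact congrArg η (by decide +kernel)
  · rw [f2, ← map_inv, ← map_inv, ← map_mul, ← map_mul]; exact congrArg η (by decide +kernel)
  · rw [map_mul σ, e1, e4, ← map_inv, ← map_mul, ← map_mul, ← map_mul]
    exact congrArg η (by decide +kernel)
  · intro g hg
    exact nb g (by rw [hg, mul_inv_cancel_right]; exact mem_zpowers _)
  · rintro ⟨g, hg⟩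
    have hg' := mem_centralizer_singleton_iff.1 hg
    rw [f123] at hg'
    obtain ⟨l, rfl⟩ := h.cc g hg'
    rw [← map_mul, ← map_mul] at hg'
    refine ⟨2, Subtype.ext ?_⟩
    change η l ^ 9 = 1
    rw [← map_pow, a6_9 (h.inj hg'), map_one]
  · intro g hg
    rw [f123] at hg
    obtain ⟨l, rfl⟩ := rng _ (J1.mul_mem (J1.mul_mem mz my) mu) h.cc g hg
    rw [f2, f3]
    rcases a6_T l with ⟨-, a⟩ | ⟨-, a | a⟩
    · exact Or.inl (up _ _ _ a)
    · exact Or.inr (Or.inl (up _ _ _ a))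
    · exact Or.inr (Or.inr (up _ _ _ a))

end Cfsg.Agent.A9T
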