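import Cfsg.Agent.A9T.A

/-! Enumeration of `H1` (helper9). -/

set_option autoImplicit false

namespace Cfsg.Agent.A9T

open Equiv Subgroup

def repP : Fin 24 → Perm (Fin 9) := ![
  1,
  swap 3 4 * swap 6 7,
  swap 0 1 * swap 6 7,
  swap 0 1 * swap 3 4,
  swap 3 6 * swap 4 7 * swap 5 8 * swap 6 7,
  swap 3 7 * swap 4 6 * swap 5 8 * swap 6 7,
  swap 0 1 * swap 3 6 * swap 4 7 * swap 5 8,
  swap 0 1 * swap 3 7 * swap 4 6 * swap 5 8,
  swap 0 3 * swap 1 4 * swap 2 5 * swap 6 7,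
  swap 0 3 * swap 1 4 * swap 2 5 * swap 3 4,
  swap 0 4 * swap 1 3 * swap 2 5 * swap 3 4,
  swap 0 4 * swap 1 3 * swap 2 5 * swap 6 7,
  swap 0 3 * swap 1 4 * swap 2 5 * swap 3 6 * swap 4 7 * swap 5 8,
  swap 0 3 * swap 1 4 * swap 2 5 * swap 3 7 * swap 4 6 * swap 5 8,
  swap 0 4 * swap 1 3 * swap 2 5 * swap 3 6 * swap 4 7 * swap 5 8,
  swap 0 4 * swap 1 3 * swap 2 5 * swap 3 7 * swap 4 6 * swap 5 8,
  swap 0 6 * swap 1 7 * swap 2 8 * swap 3 6 * swap 4 7 * swap 5 8,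
  swap 0 6 * swap 1 7 * swap 2 8 * swap 3 7 * swap 4 6 * swap 5 8,
  swap 0 7 * swap 1 6 * swap 2 8 * swap 3 7 * swap 4 6 * swap 5 8,
  swap 0 7 * swap 1 6 * swap 2 8 * swap 3 6 * swap 4 7 * swap 5 8,
  swap 0 6 * swap 1 7 * swap 2 8 * swap 6 7,
  swap 0 6 * swap 1 7 * swap 2 8 * swap 3 4,
  swap 0 7 * swap 1 6 * swap 2 8 * swap 6 7,
  swap 0 7 * swap 1 6 * swap 2 8 * swap 3 4]

def repT : Fin 24 → Fin 9 → Fin 9 := ![
  ![0, 1, 2, 3, 4, 5, 6, 7, 8],
  ![0, 1, 2, 4, 3, 5, 7, 6, 8],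
  ![1, 0, 2, 3, 4, 5, 7, 6, 8],
  ![1, 0, 2, 4, 3, 5, 6, 7, 8],
  ![0, 1, 2, 6, 7, 8, 4, 3, 5],
  ![0, 1, 2, 7, 6, 8, 3, 4, 5],
  ![1, 0, 2, 6, 7, 8, 3, 4, 5],
  ![1, 0, 2, 7, 6, 8, 4, 3, 5],
  ![3, 4, 5, 0, 1, 2, 7, 6, 8],
  ![3, 4, 5, 1, 0, 2, 6, 7, 8],
  ![4, 3, 5, 0, 1, 2, 6, 7, 8],
  ![4, 3, 5, 1, 0, 2, 7, 6, 8],
  ![3, 4, 5, 6, 7, 8, 0, 1, 2],
  ![3, 4, 5, 7, 6, 8, 1, 0, 2],
  ![4, 3, 5, 6, 7, 8, 1, 0, 2],
  ![4, 3, 5, 7, 6, 8, 0, 1, 2],
  ![6, 7, 8, 0, 1, 2, 3, 4, 5],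
  ![6, 7, 8, 1, 0, 2, 4, 3, 5],
  ![7, 6, 8, 0, 1, 2, 4, 3, 5],
  ![7, 6, 8, 1, 0, 2, 3, 4, 5],
  ![6, 7, 8, 3, 4, 5, 1, 0, 2],
  ![6, 7, 8, 4, 3, 5, 0, 1, 2],
  ![7, 6, 8, 3, 4, 5, 0, 1, 2],
  ![7, 6, 8, 4, 3, 5, 1, 0, 2]]

theorem repP_mem : ∀ m, repP m ∈ H1 := by
  intro m; rw [mem_H1]; revert m; decide +kernel

def rep (m : Fin 24) : H1 := ⟨repP m, repP_mem m⟩

/-- The general element of `J1`. -/
def jel (i j k : Fin 3) : H1 := z1 ^ i.val * y1 ^ j.val * u1 ^ k.val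

/-- The general element of `H1`. -/
def el (i j k : Fin 3) (m : Fin 24) : H1 := jel i j k * rep m

def rot (i j k : Fin 3) (a : Fin 9) : Fin 9 :=
  ⟨(a.val / 3 * 3 + (a.val + (if a.val < 3 then i.val else if a.val < 6 then j.val else k.val)) % 3) % 9,
    Nat.mod_lt _ (by decide)⟩

theorem jel_app : ∀ i j k a, (jel i j k).1 a = rot i j k a := by decide +kernel
theorem rep_app : ∀ m a, repP m a = repT m a := by decide +kernel

def sw (e : Bool) (a : Fin 9) : Fin 9 := if e then (if a = 0 then 1 else if a = 1 then 0 else a) else a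

set_option synthInstance.maxSize 4000 in
set_option synthInstance.maxHeartbeats 400000 in
theorem en_aux : ∀ a0 a1 : Fin 9, a1 ≠ a0 → a0.val / 3 = a1.val / 3 → ∀ a2 : Fin 9, a2 ≠ a0 → a2 ≠ a1 →
    a0.val / 3 = a2.val / 3 → ∀ a3 : Fin 9, a0.val / 3 ≠ a3.val / 3 → ∀ a4 : Fin 9, a4 ≠ a3 →
    a3.val / 3 = a4.val / 3 → ∀ a5 : Fin 9, a5 ≠ a3 → a5 ≠ a4 → a3.val / 3 = a5.val / 3 →
    ∀ a6 : Fin 9, a0.val / 3 ≠ a6.val / 3 → a3.val / 3 ≠ a6.val / 3 → ∀ a7 : Fin 9, a7 ≠ a6 →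
    a6.val / 3 = a7.val / 3 → ∀ a8 : Fin 9, a8 ≠ a6 → a8 ≠ a7 → a6.val / 3 = a8.val / 3 →
    ∃ m : Fin 24, (repT m 0).val / 3 = a0.val / 3 ∧ (repT m 3).val / 3 = a3.val / 3 ∧
      (a4.val + (repT m 3).val) % 3 = (a3.val + (repT m 4).val) % 3 ∧
      (a7.val + (repT m 6).val) % 3 = (a6.val + (repT m 7).val) % 3 ∧
      ∃ e : Bool, ∃ i j k : Fin 3, a2 = rot i j k (repT m 2) ∧ a3 = rot i j k (repT m 3) ∧
        a6 = rot i j k (repT m 6) ∧ a0 = rot i j k (repT m (sw e 0)) ∧ a1 = rot i j k (repT m (sw e 1)) ∧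
        a4 = rot i j k (repT m 4) ∧ a5 = rot i j k (repT m 5) ∧ a7 = rot i j k (repT m 7) ∧
        a8 = rot i j k (repT m 8) := by
  decide +kernel

theorem H1_enum (g : H1) : ∃ i j k m, g = el i j k m := by
  have hb := (mem_H1.1 g.2).2
  have ne : ∀ a b : Fin 9, a ≠ b → g.1 a ≠ g.1 b := fun a b h e => h (g.1.injective e)
  obtain ⟨m, -, -, -, -, e, i, j, k, h2, h3, h6, h0, h1, h4, h5, h7, h8⟩ :=
    en_aux (g.1 0) (g.1 1) (ne _ _ (by decide)) ((hb 0 1).1 (by decide)) (g.1 2) (ne _ _ (by decide))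
      (ne _ _ (by decide)) ((hb 0 2).1 (by decide)) (g.1 3) (fun e => absurd ((hb 0 3).2 e) (by decide))
      (g.1 4) (ne _ _ (by decide)) ((hb 3 4).1 (by decide)) (g.1 5) (ne _ _ (by decide)) (ne _ _ (by decide))
      ((hb 3 5).1 (by decide)) (g.1 6) (fun e => absurd ((hb 0 6).2 e) (by decide))
      (fun e => absurd ((hb 3 6).2 e) (by decide)) (g.1 7) (ne _ _ (by decide)) ((hb 6 7).1 (by decide))
      (g.1 8) (ne _ _ (by decide)) (ne _ _ (by decide)) ((hb 6 8).1 (by decide))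
  have ap : ∀ a, (el i j k m).1 a = rot i j k (repT m a) := fun a => by
    rw [← rep_app, ← jel_app]; rfl
  refine ⟨i, j, k, m, ?_⟩
  cases e
  · apply Subtype.ext; apply Equiv.ext; intro a; rw [ap]
    fin_cases a
    exacts [h0, h1, h2, h3, h4, h5, h6, h7, h8]
  · exfalso
    have e : g.1 = (el i j k m).1 * swap 0 1 := by
      apply Equiv.ext; intro a; rw [Perm.mul_apply, ap]
      fin_cases a
      exacts [h0, h1, h2, h3, h4, h5, h6, h7, h8]
    have s1 := (mem_H1.1 g.2).1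
    rw [e, map_mul, (mem_H1.1 (el i j k m).2).1, Perm.sign_swap (by decide)] at s1
    exact absurd s1 (by decide)

/-- To prove `∀ g : H1, P g` use `H1_all (by decide +kernel)`. -/
theorem H1_all {P : H1 → Prop} (h : ∀ m i j k, P (el i j k m)) (g : H1) : P g := by
  obtain ⟨i, j, k, m, rfl⟩ := H1_enum g
  exact h m i j k

theorem jel_mul : ∀ i j k i' j' k', jel i j k * jel i' j' k' = jel (i + i') (j + j') (k + k') := by
  intro i j k i' j' k'
  apply Subtype.ext; apply Equiv.ext; intro a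
  rw [Subgroup.coe_mul, Perm.mul_apply, jel_app, jel_app, jel_app]
  revert i j k i' j' k' a; decide +kernel

theorem jel_mem (i j k : Fin 3) : jel i j k ∈ J1 :=
  J1.mul_mem (J1.mul_mem (J1.pow_mem (subset_closure (by simp)) _) (J1.pow_mem (subset_closure (by simp)) _))
    (J1.pow_mem (subset_closure (by simp)) _)

theorem mem_J1 {x : H1} : x ∈ J1 ↔ ∃ i j k, x = jel i j k := by
  refine ⟨fun h => ?_, fun ⟨i, j, k, e⟩ => e ▸ jel_mem i j k⟩
  induction h using closure_induction with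
  | mem x hx =>
    rcases hx with rfl | rfl | rfl
    exacts [⟨1, 0, 0, by decide +kernel⟩, ⟨0, 1, 0, by decide +kernel⟩, ⟨0, 0, 1, by decide +kernel⟩]
  | one => exact ⟨0, 0, 0, by decide +kernel⟩
  | mul x y _ _ hx hy =>
    obtain ⟨i, j, k, rfl⟩ := hx
    obtain ⟨i', j', k', rfl⟩ := hy
    exact ⟨_, _, _, jel_mul ..⟩
  | inv x _ hx =>
    obtain ⟨i, j, k, rfl⟩ := hx
    refine ⟨-i, -j, -k, ?_⟩
    rw [inv_eq_iff_mul_eq_one, jel_mul]
    simp only [add_neg_cancel]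
    decide +kernel

theorem jel_inj : ∀ i j k i' j' k', jel i j k = jel i' j' k' → i = i' ∧ j = j' ∧ k = k' := by
  intro i j k i' j' k' h
  have h0 : rot i j k 0 = rot i' j' k' 0 := by rw [← jel_app, ← jel_app, h]
  have h3 : rot i j k 3 = rot i' j' k' 3 := by rw [← jel_app, ← jel_app, h]
  have h6 : rot i j k 6 = rot i' j' k' 6 := by rw [← jel_app, ← jel_app, h]
  clear h
  revert i j k i' j' k'; decide +kernel

theorem card_J1 : Nat.card J1 = 27 := by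
  have : Nat.card (Fin 3 × Fin 3 × Fin 3) = Nat.card J1 :=
    Nat.card_congr (Equiv.ofBijective (fun p => (⟨jel p.1 p.2.1 p.2.2, jel_mem _ _ _⟩ : J1))
      ⟨fun p q e => by
        obtain ⟨a, b, c⟩ := jel_inj _ _ _ _ _ _ (congrArg Subtype.val e)
        exact Prod.ext a (Prod.ext b c),
       fun x => by
        obtain ⟨i, j, k, e⟩ := mem_J1.1 x.2
        exact ⟨(i, j, k), Subtype.ext e.symm⟩⟩)
  rw [← this]; simp

theorem rep_conj : ∀ m i j k, ∃ i' j' k', rep m * jel i j k = jel i' j' k' * rep m := by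
  intro m i j k
  have : ∃ i' j' k', ∀ a, repT m (rot i j k a) = rot i' j' k' (repT m a) := by
    revert m i j k; decide +kernel
  obtain ⟨i', j', k', e⟩ := this
  refine ⟨i', j', k', Subtype.ext (Equiv.ext fun a => ?_)⟩
  rw [Subgroup.coe_mul, Subgroup.coe_mul, Perm.mul_apply, Perm.mul_apply, jel_app, jel_app]
  show repP m _ = rot _ _ _ (repP m a)
  rw [rep_app, rep_app, e]

instance J1_normal : J1.Normal := ⟨fun x hx g => by
  obtain ⟨i, j, k, rfl⟩ := mem_J1.1 hx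
  obtain ⟨a, b, c, m, rfl⟩ := H1_enum g
  obtain ⟨i', j', k', e⟩ := rep_conj m i j k
  have : el a b c m * jel i j k * (el a b c m)⁻¹ = jel a b c * jel i' j' k' * (jel a b c)⁻¹ := by
    rw [el, mul_assoc (jel a b c), e]; group
  rw [this]
  exact J1.mul_mem (J1.mul_mem (jel_mem _ _ _) (jel_mem _ _ _)) (J1.inv_mem (jel_mem _ _ _))⟩

theorem el_inj : ∀ m m' i j k i' j' k', el i j k m = el i' j' k' m' → m = m' ∧ i = i' ∧ j = j' ∧ k = k' := by
  intro m m' i j k i' j' k' h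
  have ap : ∀ i j k m a, (el i j k m).1 a = rot i j k (repT m a) := fun i j k m a => by
    rw [← rep_app, ← jel_app]; rfl
  have hm : m = m' := by
    have key : ∀ m m' : Fin 24, (∀ a, (repT m a).val / 3 = (repT m' a).val / 3) →
        (∀ a b : Fin 9, a.val / 3 = b.val / 3 →
          ((repT m a).val + (repT m' b).val) % 3 = ((repT m b).val + (repT m' a).val) % 3) → m = m' := by
      decide +kernel
    have k1 : ∀ (i j k i' j' k' : Fin 3) (x y : Fin 9), rot i j k x = rot i' j' k' y → x.val / 3 = y.val / 3 := by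
      intro i j k i' j' k' x y e
      have := congrArg (fun t : Fin 9 => t.val / 3) e
      simp only [rot] at this
      have hx := x.2; have hy := y.2
      omega
    have e : ∀ a, rot i j k (repT m a) = rot i' j' k' (repT m' a) := fun a => by rw [← ap, ← ap, h]
    refine key m m' (fun a => k1 _ _ _ _ _ _ _ _ (e a)) fun a b hab => ?_
    have bl : ∀ (m : Fin 24) (a b : Fin 9), a.val / 3 = b.val / 3 → (repT m a).val / 3 = (repT m b).val / 3 := by decide +kernel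
    have ea := congrArg Fin.val (e a)
    have eb := congrArg Fin.val (e b)
    have b1 := bl m a b hab
    have b2 := bl m' a b hab
    have b3 := k1 _ _ _ _ _ _ _ _ (e a)
    simp only [rot] at ea eb
    have := (repT m a).2; have := (repT m b).2; have := (repT m' a).2; have := (repT m' b).2
    split_ifs at ea eb <;> omega
  subst hm
  exact ⟨rfl, jel_inj _ _ _ _ _ _ (mul_right_cancel h)⟩

theorem card_H1 : Nat.card H1 = 648 := by
  have : Nat.card (Fin 24 × Fin 3 × Fin 3 × Fin 3) = Nat.card H1 :=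
    Nat.card_congr (Equiv.ofBijective (fun p => el p.2.1 p.2.2.1 p.2.2.2 p.1)
      ⟨fun p q e => by
        obtain ⟨a, b, c, d⟩ := el_inj _ _ _ _ _ _ _ _ e
        exact Prod.ext a (Prod.ext b (Prod.ext c d)),
       fun x => by
        obtain ⟨i, j, k, m, e⟩ := H1_enum x
        exact ⟨(m, i, j, k), e.symm⟩⟩)
  rw [← this]; simp

end Cfsg.Agent.A9T
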